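import Mathlib

set_option autoImplicit false

/-! Order types of finite groups: counting solutions of `x ^ n = 1`, products, and a
split-extension construction `SD` of an abelian group by an acting group. -/

namespace Cfsg.Agent.Lib.Helper3.OT

/-- The number of solutions of `x ^ n = 1`. -/
noncomputable def Fc (G : Type*) [Group G] (n : ℕ) : ℕ := Nat.card {x : G // x ^ n = 1}

theorem Fc_prod (A B : Type*) [Group A] [Group B] (n : ℕ) :
    Fc (A × B) n = Fc A n * Fc B n := by
  unfold Fc
  rw [← Nat.card_prod]
  refine Nat.card_congr (Equiv.trans (Equiv.subtypeEquivRight ?_)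
    (Equiv.subtypeProdEquivProd (p := fun a : A => a ^ n = 1) (q := fun b : B => b ^ n = 1)))
  intro x
  rw [Prod.ext_iff]
  rfl

theorem Fc_pi (A : Type*) [Group A] (k n : ℕ) : Fc (Fin k → A) n = Fc A n ^ k := by
  unfold Fc
  have h : Nat.card (Fin k → {a : A // a ^ n = 1}) = Nat.card {a : A // a ^ n = 1} ^ k := by
    rw [Nat.card_fun, Nat.card_fin]
  rw [← h]
  refine Nat.card_congr (Equiv.trans (Equiv.subtypeEquivRight ?_)
    (Equiv.subtypePiEquivPi (p := fun (_ : Fin k) (a : A) => a ^ n = 1)))
  intro f
  constructor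
  · intro hf i
    have := congrFun hf i
    simpa using this
  · intro hf
    funext i
    simpa using hf i

/-- The number of elements of order `n`. -/
noncomputable def Oc (G : Type*) [Group G] (n : ℕ) : ℕ := Nat.card {x : G // orderOf x = n}

theorem Fc_eq_sum (G : Type*) [Group G] [Finite G] (n : ℕ) (hn : n ≠ 0) :
    Fc G n = ∑ d ∈ n.divisors, Oc G d := by
  classical
  have := Fintype.ofFinite G
  unfold Fc Oc
  have h1 : Nat.card {x : G // x ^ n = 1} = (Finset.univ.filter (fun x : G => x ^ n = 1)).card := by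
    rw [Nat.card_eq_fintype_card, Fintype.card_subtype]
  rw [h1, Finset.card_eq_sum_card_fiberwise (f := fun x : G => orderOf x) (t := n.divisors)]
  · refine Finset.sum_congr rfl (fun d hd => ?_)
    rw [Nat.card_eq_fintype_card, Fintype.card_subtype]
    congr 1
    ext x
    simp only [Finset.mem_filter, Finset.mem_univ, true_and]
    constructor
    · rintro ⟨-, h⟩
      exact h
    · intro h
      refine ⟨?_, h⟩
      rw [← orderOf_dvd_iff_pow_eq_one, h]
      exact Nat.dvd_of_mem_divisors hd
  · intro x hx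
    simp only [Finset.coe_filter, Finset.mem_univ, true_and, Set.mem_ofPred_eq] at hx
    simp only [Finset.mem_coe, Nat.mem_divisors]
    exact ⟨orderOf_dvd_of_pow_eq_one hx, hn⟩

theorem Oc_eq_of_Fc (G H : Type*) [Group G] [Group H] [Finite G] [Finite H]
    (h : ∀ n, Fc G n = Fc H n) : ∀ n, Oc G n = Oc H n := by
  intro n
  induction n using Nat.strong_induction_on with
  | _ n ih =>
    rcases Nat.eq_zero_or_pos n with h0 | hpos
    · subst h0
      unfold Oc
      have e1 : IsEmpty {x : G // orderOf x = 0} :=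
        ⟨fun x => (orderOf_pos x.1).ne' x.2⟩
      have e2 : IsEmpty {x : H // orderOf x = 0} :=
        ⟨fun x => (orderOf_pos x.1).ne' x.2⟩
      rw [Nat.card_of_isEmpty, Nat.card_of_isEmpty]
    · have hG := Fc_eq_sum G n hpos.ne'
      have hH := Fc_eq_sum H n hpos.ne'
      rw [← Nat.insert_self_properDivisors hpos.ne',
        Finset.sum_insert Nat.self_notMem_properDivisors] at hG hH
      have hs : ∑ d ∈ n.properDivisors, Oc G d = ∑ d ∈ n.properDivisors, Oc H d :=
        Finset.sum_congr rfl (fun d hd => ih d (Nat.mem_properDivisors.mp hd).2)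
      have := h n
      omega

/-- In a group of exponent dividing 84 the counts depend only on the gcd with 84. -/
theorem Fc_gcd {X : Type*} [Group X] (hall : ∀ x : X, x ^ 84 = 1) (n : ℕ) :
    Fc X n = Fc X (Nat.gcd n 84) := by
  unfold Fc
  refine Nat.card_congr (Equiv.subtypeEquivRight (fun x => ?_))
  constructor
  · intro hx
    exact pow_gcd_eq_one.mpr ⟨hx, hall x⟩
  · intro hx
    obtain ⟨k, hk⟩ := Nat.gcd_dvd_left n 84
    rw [hk, pow_mul, hx, one_pow]

/-- A table criterion: counts for the divisors of 84 determine all counts. -/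
theorem Fc_of_table {X : Type*} [Group X] [Fintype X] [DecidableEq X] (t : ℕ → ℕ)
    (h : ∀ d ∈ Nat.divisors 84, (Finset.univ.filter (fun x : X => x ^ d = 1)).card = t d)
    (h84 : t 84 = Fintype.card X) : ∀ n, Fc X n = t (Nat.gcd n 84) := by
  have hall : ∀ x : X, x ^ 84 = 1 := by
    have h1 := h 84 (by decide)
    rw [h84, ← Finset.card_univ, Finset.card_filter_eq_iff] at h1
    exact fun x => h1 x (Finset.mem_univ x)
  intro n
  have hd : Nat.gcd n 84 ∈ Nat.divisors 84 :=
    Nat.mem_divisors.mpr ⟨Nat.gcd_dvd_right n 84, by norm_num⟩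
  rw [← h _ hd]
  unfold Fc
  rw [Nat.card_eq_fintype_card, Fintype.card_subtype]
  congr 1
  ext x
  simp only [Finset.mem_filter, Finset.mem_univ, true_and]
  constructor
  · intro hx
    exact pow_gcd_eq_one.mpr ⟨hx, hall x⟩
  · intro hx
    obtain ⟨k, hk⟩ := Nat.gcd_dvd_left n 84
    rw [hk, pow_mul, hx, one_pow]

/-- Action data for a split extension. -/
class IsAct {V Y : Type} [AddCommGroup V] [Group Y] (a : Y → V → V) : Prop where
  one : ∀ v, a 1 v = v
  mul : ∀ y z v, a (y * z) v = a y (a z v)
  add : ∀ y v w, a y (v + w) = a y v + a y w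

/-- The componentwise action on a product. -/
def prodAct {V W Y : Type} (a : Y → V → V) (b : Y → W → W) (y : Y) (p : V × W) : V × W :=
  (a y p.1, b y p.2)

instance isAct_prodAct {V W Y : Type} [AddCommGroup V] [AddCommGroup W] [Group Y]
    (a : Y → V → V) (b : Y → W → W) [IsAct a] [IsAct b] : IsAct (prodAct a b) where
  one p := by
    show (a 1 p.1, b 1 p.2) = p
    rw [IsAct.one (a := a), IsAct.one (a := b)]
  mul y z p := by
    show (a (y * z) p.1, b (y * z) p.2) = (a y (a z p.1), b y (b z p.2))
    rw [IsAct.mul (a := a), IsAct.mul (a := b)]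
  add y p q := by
    show (a y (p.1 + q.1), b y (p.2 + q.2)) = (a y p.1 + a y q.1, b y p.2 + b y q.2)
    rw [IsAct.add (a := a), IsAct.add (a := b)]

/-- The split extension of the abelian group `V` by `Y` acting through `a`. -/
structure SD {V Y : Type} [AddCommGroup V] [Group Y] (a : Y → V → V) : Type where
  v : V
  y : Y
deriving DecidableEq

namespace SD

variable {V Y : Type} [AddCommGroup V] [Group Y] {a : Y → V → V}

theorem ext' {p q : SD a} (h1 : p.v = q.v) (h2 : p.y = q.y) : p = q := by
  cases p; cases q; simp_all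

theorem act_zero [IsAct a] (y : Y) : a y 0 = 0 := by
  have h := IsAct.add (a := a) y 0 0
  rw [add_zero] at h
  exact (add_eq_left.mp h.symm)

instance instMul : Mul (SD a) := ⟨fun p q => ⟨p.v + a p.y q.v, p.y * q.y⟩⟩
instance instOne : One (SD a) := ⟨⟨0, 1⟩⟩
instance instInv : Inv (SD a) := ⟨fun p => ⟨-(a p.y⁻¹ p.v), p.y⁻¹⟩⟩

theorem mul_v (p q : SD a) : (p * q).v = p.v + a p.y q.v := rfl
theorem mul_y (p q : SD a) : (p * q).y = p.y * q.y := rfl
theorem one_v : (1 : SD a).v = 0 := rfl
theorem one_y : (1 : SD a).y = 1 := rfl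
theorem inv_v (p : SD a) : (p⁻¹).v = -(a p.y⁻¹ p.v) := rfl
theorem inv_y (p : SD a) : (p⁻¹).y = p.y⁻¹ := rfl

instance instGroup [IsAct a] : Group (SD a) :=
  Group.ofLeftAxioms
    (fun p q r => by
      apply ext'
      · simp only [mul_v, mul_y, IsAct.add, IsAct.mul, add_assoc]
      · simp only [mul_y, mul_assoc])
    (fun p => by
      apply ext'
      · simp only [mul_v, one_v, one_y, IsAct.one, zero_add]
      · simp only [mul_y, one_y, one_mul])
    (fun p => by
      apply ext'
      · simp only [mul_v, inv_v, inv_y, one_v, neg_add_cancel]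
      · simp only [mul_y, inv_y, one_y, inv_mul_cancel])

instance instFintype [Fintype V] [Fintype Y] : Fintype (SD a) :=
  Fintype.ofEquiv (V × Y)
    ⟨fun p => ⟨p.1, p.2⟩, fun s => (s.v, s.y), fun _ => rfl, fun _ => rfl⟩

theorem card_eq [Fintype V] [Fintype Y] : Fintype.card (SD a) = Fintype.card V * Fintype.card Y := by
  rw [← Fintype.card_prod]
  exact (Fintype.card_congr
    ⟨fun p => ⟨p.1, p.2⟩, fun s => (s.v, s.y), fun _ => rfl, fun _ => rfl⟩).symm

/-- The projection onto the acting group. -/
def proj [IsAct a] : SD a →* Y where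
  toFun p := p.y
  map_one' := rfl
  map_mul' _ _ := rfl

/-- The inclusion of the abelian kernel. -/
def incl [IsAct a] : Multiplicative V →* SD a where
  toFun v := ⟨Multiplicative.toAdd v, 1⟩
  map_one' := rfl
  map_mul' v w := by
    apply ext'
    · simp only [mul_v, IsAct.one, toAdd_mul]
    · simp only [mul_y, mul_one]

instance instSolvable [IsAct a] [Group.IsSolvable Y] : Group.IsSolvable (SD a) := by
  refine Group.isSolvable_of_ker_le_range (incl (a := a)) (proj (a := a)) ?_
  intro p hp
  refine ⟨Multiplicative.ofAdd p.v, ?_⟩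
  apply ext'
  · rfl
  · exact (MonoidHom.mem_ker.mp hp).symm

end SD

/-- Powers of a solvable group are solvable. -/
instance solvable_pi (A : Type*) [Group A] [Group.IsSolvable A] (k : ℕ) :
    Group.IsSolvable (Fin k → A) := by
  obtain ⟨n, hn⟩ := (Group.isSolvable_def A).mp inferInstance
  refine (Group.isSolvable_def _).mpr ⟨n, ?_⟩
  have key : ∀ m, derivedSeries (Fin k → A) m ≤
      Subgroup.pi Set.univ (fun _ : Fin k => derivedSeries A m) := by
    intro m
    induction m with
    | zero =>
      intro x _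
      rw [Subgroup.mem_pi]
      intro i _
      exact Subgroup.mem_top _
    | succ m ih =>
      rw [derivedSeries_succ]
      refine le_trans (Subgroup.commutator_mono ih ih) ?_
      refine le_trans (Subgroup.commutator_pi_pi_le _ _) ?_
      exact le_of_eq rfl
  rw [eq_bot_iff]
  intro x hx
  have h1 := key n hx
  rw [Subgroup.mem_pi] at h1
  rw [Subgroup.mem_bot]
  funext i
  have h2 := h1 i (Set.mem_univ i)
  rw [hn] at h2
  exact Subgroup.mem_bot.mp h2

end Cfsg.Agent.Lib.Helper3.OT
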