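import Mathlib
import Cfsg.Agent.Lib.Helper3.OTa
import Cfsg.Agent.Lib.Helper3.OTb0

set_option autoImplicit false
set_option maxRecDepth 100000
set_option maxHeartbeats 4000000

namespace Cfsg.Agent.Lib.Helper3.OT

/-- The group `Q13` (order 252). -/
abbrev Q13 : Type := SD (prodAct b13 b10)

/-- The table of the group `Q13`. -/
def tQ13 (d : ℕ) : ℕ := if d = 1 then 1 else if d = 2 then 2 else if d = 3 then 45 else if d = 4 then 44 else if d = 6 then 90 else if d = 7 then 7 else if d = 12 then 216 else if d = 14 then 14 else if d = 21 then 63 else if d = 28 then 56 else if d = 42 then 126 else if d = 84 then 252 else 0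

theorem tabQ13 : ∀ d ∈ Nat.divisors 84,
    (Finset.univ.filter (fun x : Q13 => x ^ d = 1)).card = tQ13 d := by
  decide +kernel

theorem cardQ13 : tQ13 84 = Fintype.card Q13 := by
  decide +kernel

theorem FcQ13 : ∀ n, Fc Q13 n = tQ13 (Nat.gcd n 84) := Fc_of_table tQ13 tabQ13 cardQ13

/-- The group `Q14` (order 252). -/
abbrev Q14 : Type := SD (prodAct b14 b7)

/-- The table of the group `Q14`. -/
def tQ14 (d : ℕ) : ℕ := if d = 1 then 1 else if d = 2 then 2 else if d = 3 then 9 else if d = 4 then 128 else if d = 6 then 18 else if d = 7 then 7 else if d = 12 then 144 else if d = 14 then 14 else if d = 21 then 63 else if d = 28 then 140 else if d = 42 then 126 else if d = 84 then 252 else 0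

theorem tabQ14 : ∀ d ∈ Nat.divisors 84,
    (Finset.univ.filter (fun x : Q14 => x ^ d = 1)).card = tQ14 d := by
  decide +kernel

theorem cardQ14 : tQ14 84 = Fintype.card Q14 := by
  decide +kernel

theorem FcQ14 : ∀ n, Fc Q14 n = tQ14 (Nat.gcd n 84) := Fc_of_table tQ14 tabQ14 cardQ14

end Cfsg.Agent.Lib.Helper3.OT
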