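import Mathlib
import Cfsg.Agent.Lib.Helper3.OTa
import Cfsg.Agent.Lib.Helper3.OTb0

set_option autoImplicit false
set_option maxRecDepth 100000
set_option maxHeartbeats 4000000

namespace Cfsg.Agent.Lib.Helper3.OT

/-- The group `Q15` (order 252). -/
abbrev Q15 : Type := SD (prodAct b15 (prodAct b16 b4))

/-- The table of the group `Q15`. -/
def tQ15 (d : ℕ) : ℕ := if d = 1 then 1 else if d = 2 then 128 else if d = 3 then 9 else if d = 4 then 128 else if d = 6 then 144 else if d = 7 then 7 else if d = 12 then 144 else if d = 14 then 140 else if d = 21 then 63 else if d = 28 then 140 else if d = 42 then 252 else if d = 84 then 252 else 0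

theorem tabQ15 : ∀ d ∈ Nat.divisors 84,
    (Finset.univ.filter (fun x : Q15 => x ^ d = 1)).card = tQ15 d := by
  decide +kernel

theorem cardQ15 : tQ15 84 = Fintype.card Q15 := by
  decide +kernel

theorem FcQ15 : ∀ n, Fc Q15 n = tQ15 (Nat.gcd n 84) := Fc_of_table tQ15 tabQ15 cardQ15

/-- The group `Q16` (order 294). -/
abbrev Q16 : Type := SD (b17)

/-- The table of the group `Q16`. -/
def tQ16 (d : ℕ) : ℕ := if d = 1 then 1 else if d = 2 then 50 else if d = 3 then 15 else if d = 4 then 50 else if d = 6 then 162 else if d = 7 then 49 else if d = 12 then 162 else if d = 14 then 98 else if d = 21 then 147 else if d = 28 then 98 else if d = 42 then 294 else if d = 84 then 294 else 0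

theorem tabQ16 : ∀ d ∈ Nat.divisors 84,
    (Finset.univ.filter (fun x : Q16 => x ^ d = 1)).card = tQ16 d := by
  decide +kernel

theorem cardQ16 : tQ16 84 = Fintype.card Q16 := by
  decide +kernel

theorem FcQ16 : ∀ n, Fc Q16 n = tQ16 (Nat.gcd n 84) := Fc_of_table tQ16 tabQ16 cardQ16

end Cfsg.Agent.Lib.Helper3.OT
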