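import Mathlib
import Cfsg.Agent.Lib.Helper3.OTa
import Cfsg.Agent.Lib.Helper3.OTb0

set_option autoImplicit false
set_option maxRecDepth 100000
set_option maxHeartbeats 4000000

namespace Cfsg.Agent.Lib.Helper3.OT

/-- The group `Q17` (order 336). -/
abbrev Q17 : Type := SD (prodAct b18 b6)

/-- The table of the group `Q17`. -/
def tQ17 (d : ℕ) : ℕ := if d = 1 then 1 else if d = 2 then 16 else if d = 3 then 225 else if d = 4 then 16 else if d = 6 then 240 else if d = 7 then 7 else if d = 12 then 240 else if d = 14 then 112 else if d = 21 then 231 else if d = 28 then 112 else if d = 42 then 336 else if d = 84 then 336 else 0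

theorem tabQ17 : ∀ d ∈ Nat.divisors 84,
    (Finset.univ.filter (fun x : Q17 => x ^ d = 1)).card = tQ17 d := by
  decide +kernel

theorem cardQ17 : tQ17 84 = Fintype.card Q17 := by
  decide +kernel

theorem FcQ17 : ∀ n, Fc Q17 n = tQ17 (Nat.gcd n 84) := Fc_of_table tQ17 tabQ17 cardQ17

end Cfsg.Agent.Lib.Helper3.OT
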