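import Mathlib
import Cfsg.Agent.Lib.Helper3.OTa
import Cfsg.Agent.Lib.Helper3.OTb0

set_option autoImplicit false
set_option maxRecDepth 100000
set_option maxHeartbeats 4000000

namespace Cfsg.Agent.Lib.Helper3.OT

/-- The group `Q19` (order 672). -/
abbrev Q19 : Type := SD (prodAct b19 b21)

/-- The table of the group `Q19`. -/
def tQ19 (d : ℕ) : ℕ := if d = 1 then 1 else if d = 2 then 44 else if d = 3 then 33 else if d = 4 then 128 else if d = 6 then 300 else if d = 7 then 7 else if d = 12 then 384 else if d = 14 then 140 else if d = 21 then 231 else if d = 28 then 224 else if d = 42 then 588 else if d = 84 then 672 else 0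

theorem tabQ19 : ∀ d ∈ Nat.divisors 84,
    (Finset.univ.filter (fun x : Q19 => x ^ d = 1)).card = tQ19 d := by
  decide +kernel

theorem cardQ19 : tQ19 84 = Fintype.card Q19 := by
  decide +kernel

theorem FcQ19 : ∀ n, Fc Q19 n = tQ19 (Nat.gcd n 84) := Fc_of_table tQ19 tabQ19 cardQ19

end Cfsg.Agent.Lib.Helper3.OT
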