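import Mathlib
import Cfsg.Agent.Lib.Helper3.OTb0

set_option autoImplicit false
set_option maxRecDepth 100000
set_option maxHeartbeats 4000000

/-! The group of semilinear affine maps of the field with eight elements, as an iterated split
extension, with its table of solution counts. -/

namespace Cfsg.Agent.Lib.Helper3.OT

/-- Multiplication by a primitive element of the field with eight elements. -/
def mz (v : ZMod 2 × ZMod 2 × ZMod 2) : ZMod 2 × ZMod 2 × ZMod 2 := (v.2.2, v.1 + v.2.2, v.2.1)

/-- The squaring map of the field with eight elements. -/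
def fr (v : ZMod 2 × ZMod 2 × ZMod 2) : ZMod 2 × ZMod 2 × ZMod 2 := (v.1, v.2.2, v.2.1 + v.2.2)

/-- The action of the group of order 21 on the field with eight elements. -/
def aAG (p : SD b6) (v : ZMod 2 × ZMod 2 × ZMod 2) : ZMod 2 × ZMod 2 × ZMod 2 :=
  mz^[p.v.val] (fr^[(Multiplicative.toAdd p.y).val] v)

instance isAct_aAG : IsAct aAG := ⟨by decide +kernel, by decide +kernel, by decide +kernel⟩

/-- The group of order 168 of semilinear affine maps. -/
abbrev AG : Type := SD aAG

/-- The table of the group `AG`. -/
def tAG (d : ℕ) : ℕ := if d = 1 then 1 else if d = 2 then 8 else if d = 3 then 57 else if d = 4 then 8 else if d = 6 then 120 else if d = 7 then 49 else if d = 12 then 120 else if d = 14 then 56 else if d = 21 then 105 else if d = 28 then 56 else if d = 42 then 168 else if d = 84 then 168 else 0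

theorem tabAG : ∀ d ∈ Nat.divisors 84,
    (Finset.univ.filter (fun x : AG => x ^ d = 1)).card = tAG d := by
  decide +kernel

theorem cardAG : tAG 84 = Fintype.card AG := by
  decide +kernel

theorem FcAG : ∀ n, Fc AG n = tAG (Nat.gcd n 84) := Fc_of_table tAG tabAG cardAG

end Cfsg.Agent.Lib.Helper3.OT
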