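import Mathlib
import Cfsg.Agent.Lib.Helper3.OTa
import Cfsg.Agent.S1005
import Cfsg.Agent.S1006
import Cfsg.Agent.S0243

set_option autoImplicit false

/-! The order statistics of the simple group of order 168, in the form used for order types. -/

namespace Cfsg.Agent.Lib.Helper3.OT

/-- The projective special linear group of degree two over seven elements. -/
abbrev L7 : Type := Matrix.ProjectiveSpecialLinearGroup (Fin 2) (ZMod 7)

instance fact_prime_seven : Fact (Nat.Prime 7) := ⟨by norm_num⟩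

theorem card_L7 : Nat.card L7 = 168 := by
  have h := Cfsg.Agent.S0243.result (F := ZMod 7) (q := 7) (ZMod.card 7) 2 (by norm_num)
  have h3 : ∏ i : Fin 2, (7 ^ 2 - 7 ^ (i : ℕ)) = 2016 := by decide
  have h5 : Nat.gcd 2 (7 - 1) = 2 := by decide
  rw [h3, h5] at h
  show Nat.card (Matrix.ProjectiveSpecialLinearGroup (Fin 2) (ZMod 7)) = 168
  omega

instance simple_L7 : IsSimpleGroup L7 :=
  Matrix.ProjectiveSpecialLinearGroup.rank_two_simple
    (by rw [Nat.card_eq_fintype_card, ZMod.card]; norm_num)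

instance finite_L7 : Finite L7 := Nat.finite_of_card_ne_zero (by rw [card_L7]; norm_num)

/-- The number of elements of each order. -/
def cL (e : ℕ) : ℕ :=
  if e = 1 then 1 else if e = 2 then 21 else if e = 3 then 56 else if e = 4 then 42
  else if e = 7 then 48 else 0

/-- The table of the group. -/
def tL (d : ℕ) : ℕ := ∑ e ∈ Nat.divisors d, cL e

theorem Oc_L7 (e : ℕ) : Oc L7 e = cL e := by
  obtain ⟨ho, h2, -⟩ := Cfsg.Agent.S1005.result card_L7
  obtain ⟨h3, -, h4, -, h7, -⟩ := Cfsg.Agent.S1006.result card_L7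
  unfold cL
  split_ifs with e1 e2 e3 e4 e7
  · subst e1
    unfold Oc
    rw [Nat.card_eq_one_iff_unique]
    refine ⟨⟨fun a b => ?_⟩, ⟨⟨1, orderOf_one⟩⟩⟩
    apply Subtype.ext
    rw [orderOf_eq_one_iff.mp a.2, orderOf_eq_one_iff.mp b.2]
  · subst e2; exact h2
  · subst e3; exact h3
  · subst e4; exact h4
  · subst e7; exact h7
  · unfold Oc
    have : IsEmpty {x : L7 // orderOf x = e} := ⟨fun x => by
      have hx := x.2
      rcases ho x.1 with h | h | h | h | h <;> omega⟩
    exact Nat.card_of_isEmpty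

theorem Fc_L7 (n : ℕ) : Fc L7 n = tL (Nat.gcd n 84) := by
  obtain ⟨ho, -, -⟩ := Cfsg.Agent.S1005.result card_L7
  have hall : ∀ x : L7, x ^ 84 = 1 := by
    intro x
    rw [← orderOf_dvd_iff_pow_eq_one]
    rcases ho x with h | h | h | h | h <;> rw [h] <;> norm_num
  have hg : Nat.gcd n 84 ≠ 0 := by
    intro h
    rw [Nat.gcd_eq_zero_iff] at h
    omega
  rw [Fc_gcd hall n, Fc_eq_sum L7 _ hg]
  exact Finset.sum_congr rfl (fun e _ => Oc_L7 e)

theorem not_solvable_L7 : ¬ Group.IsSolvable L7 := by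
  intro h
  have hc : ∀ a b : L7, a * b = b * a := (IsSimpleGroup.comm_iff_isSolvable).mpr h
  let _ : CommGroup L7 := { (inferInstance : Group L7) with mul_comm := hc }
  have hp := IsSimpleGroup.prime_card (α := L7)
  rw [card_L7] at hp
  norm_num at hp

end Cfsg.Agent.Lib.Helper3.OT
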