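import Mathlib
import Cfsg.Agent.Lib.Helper3.OTb1
import Cfsg.Agent.Lib.Helper3.OTb2
import Cfsg.Agent.Lib.Helper3.OTb3
import Cfsg.Agent.Lib.Helper3.OTb4
import Cfsg.Agent.Lib.Helper3.OTb5
import Cfsg.Agent.Lib.Helper3.OTb6
import Cfsg.Agent.Lib.Helper3.OTc
import Cfsg.Agent.Lib.Helper3.OTl

set_option autoImplicit false
set_option maxRecDepth 100000
set_option maxHeartbeats 4000000

/-! A solvable and a non-solvable group with the same order type. -/

namespace Cfsg.Agent.Lib.Helper3.OT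

/-- The solvable group. -/
abbrev GS : Type := (Fin 1 → Q2) × (Fin 21 → Q3) × (Fin 6 → Q7) × (Fin 6 → Q8) × (Fin 3 → Q9) × (Fin 12 → Q10) × (Fin 2 → Q11) × (Fin 3 → AG) × (Fin 6 → Q15) × (Fin 3 → Q18)

/-- The non-solvable group. -/
abbrev HS : Type := (Fin 3 → L7) × (Fin 24 → Q1) × (Fin 12 → Q4) × (Fin 6 → Q5) × (Fin 4 → Q6) × (Fin 3 → Q12) × (Fin 6 → Q13) × (Fin 6 → Q14) × (Fin 2 → Q16) × (Fin 3 → Q17) × (Fin 3 → Q19)

theorem key : ∀ d ∈ Nat.divisors 84,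
    tQ2 d ^ 1 * (tQ3 d ^ 21 * (tQ7 d ^ 6 * (tQ8 d ^ 6 * (tQ9 d ^ 3 * (tQ10 d ^ 12 * (tQ11 d ^ 2 * (tAG d ^ 3 * (tQ15 d ^ 6 * (tQ18 d ^ 3))))))))) =
    tL d ^ 3 * (tQ1 d ^ 24 * (tQ4 d ^ 12 * (tQ5 d ^ 6 * (tQ6 d ^ 4 * (tQ12 d ^ 3 * (tQ13 d ^ 6 * (tQ14 d ^ 6 * (tQ16 d ^ 2 * (tQ17 d ^ 3 * (tQ19 d ^ 3)))))))))) := by
  decide +kernel

theorem Fc_GS_HS (n : ℕ) : Fc GS n = Fc HS n := by
  have hd : Nat.gcd n 84 ∈ Nat.divisors 84 :=
    Nat.mem_divisors.mpr ⟨Nat.gcd_dvd_right n 84, by norm_num⟩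
  have h := key _ hd
  simp only [Fc_prod, Fc_pi, Fc_L7, FcQ1, FcQ2, FcQ3, FcQ4, FcQ5, FcQ6, FcQ7, FcQ8, FcQ9, FcQ10, FcQ11, FcQ12, FcAG, FcQ13, FcQ14, FcQ15, FcQ16, FcQ17, FcQ18, FcQ19]
  exact h

theorem not_solvable_HS : ¬ Group.IsSolvable HS := by
  intro h
  let f : L7 →* HS := (MonoidHom.inl (Fin 3 → L7) _).comp (Pi.constMonoidHom (Fin 3) L7)
  have hf : Function.Injective f := by
    intro a b hab
    have h1 : (f a).1 0 = (f b).1 0 := by rw [hab]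
    exact h1
  exact not_solvable_L7 (Group.isSolvable_of_isSolvable_injective hf)

set_option synthInstance.maxHeartbeats 4000000 in
set_option synthInstance.maxSize 4096 in
instance finite_GS : Finite GS := inferInstance

set_option synthInstance.maxHeartbeats 4000000 in
set_option synthInstance.maxSize 4096 in
instance finite_HS : Finite HS := inferInstance

set_option synthInstance.maxHeartbeats 4000000 in
set_option synthInstance.maxSize 4096 in
instance solvable_GS : Group.IsSolvable GS := inferInstance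

theorem main : ∃ (G : Type) (_ : Group G) (_ : Finite G) (H : Type) (_ : Group H) (_ : Finite H),
    Group.IsSolvable G ∧ ¬ Group.IsSolvable H ∧
      ∀ n : ℕ, Nat.card {g : G // orderOf g = n} = Nat.card {h : H // orderOf h = n} :=
  ⟨GS, inferInstance, inferInstance, HS, inferInstance, inferInstance, inferInstance,
    not_solvable_HS, Oc_eq_of_Fc GS HS Fc_GS_HS⟩

end Cfsg.Agent.Lib.Helper3.OT
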