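import Mathlib
import Cfsg.Agent.Lib.Helper3.SuAut3

set_option autoImplicit false
set_option linter.unusedSectionVars false

namespace Cfsg.Agent.Lib.Helper3.SuAut2

open Cfsg.Agent.Lib.Helper2.Unitary Cfsg.Agent.Lib.Helper2.HermCount
  Cfsg.Agent.Lib.Helper3.SuAut1 Cfsg.Agent.Lib.Lead.Cores

variable {F : Type*} [Field F] [Fintype F] {H : Type*} [Group H]

namespace CoU

variable {q : ℕ} (C : CoU F q H)

include C

/-- for `q = 4` the automorphism group has no subgroup `S₃`. -/
theorem no_S3 (hq : q = 2 ^ 2) (x y : MulAut H) (hx3 : x * x * x = 1) (hx1 : x ≠ 1)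
    (hy2 : y * y = 1) (hyx : y * x = x * x * y) : False := by
  have := C.finite
  obtain ⟨l, σ, hl, hA, -⟩ := C.A_form x
  obtain ⟨m, τ, hm, hAy, -⟩ := C.A_form y
  have h2 := C.h2
  have hF16 : Fintype.card F = 2 ^ 4 := by
    rw [C.hF, hq]
    norm_num
  have h1 : ∀ a, l * σ l * σ (σ l) * σ (σ (σ a)) = a := by
    intro a
    have h := C.A_mul (x * x) x a
    rw [hx3, C.A_one, C.A_mul] at h
    simp only [hA, map_mul] at h
    linear_combination -h
  have h3 : l * σ l * σ (σ l) = 1 := by
    have h := h1 1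
    simpa using h
  have hσ3 : ∀ a, σ (σ (σ a)) = a := by
    intro a
    have h := h1 a
    rw [h3, one_mul] at h
    exact h
  have hσ4 : σ ^ 4 = 1 := by
    have hc := Cfsg.Agent.Lib.Helper3.SzAut1.card_ringAut 4 hF16 h2
    have h := pow_card_eq_one' (G := F ≃+* F) (x := σ)
    rwa [hc] at h
  have hσ : ∀ a, σ a = a := by
    intro a
    have h5 : (σ ^ 4) a = σ (σ (σ (σ a))) := rfl
    rw [hσ4] at h5
    have h6 := hσ3 (σ a)
    rw [← h5] at h6
    exact h6.symm
  have hxA : ∀ a, C.A x a = l * a := fun a => by rw [hA, hσ]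
  have hl3 : l * l * l = 1 := by
    have h := h3
    rwa [hσ, hσ] at h
  have hl1 : l ≠ 1 := by
    intro h
    apply hx1
    have hk : x ∈ C.Phi.ker := C.mem_ker x (fun a => by rw [hxA, h, one_mul])
    have hcard := C.card_ker 2 hq
    have h8 : x ^ 256 = 1 := by
      have h9 := pow_card_eq_one' (G := C.Phi.ker) (x := ⟨x, hk⟩)
      rw [hcard] at h9
      have h9' := congrArg Subtype.val h9
      rw [Subgroup.coe_pow] at h9'
      exact h9'
    have h3' : x ^ 3 = 1 := by
      rw [← hx3]
      exact (by rw [pow_succ, pow_two] : x ^ (2 + 1) = x * x * x)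
    have h10 : x ^ 256 = (x ^ 3) ^ 85 * x := by
      rw [← pow_mul, ← pow_succ]
    rw [h10, h3', one_pow, one_mul] at h8
    exact h8
  have hy1 : ∀ a, m * τ m * τ (τ a) = a := by
    intro a
    have h := C.A_mul y y a
    rw [hy2, C.A_one, hAy, hAy, map_mul] at h
    linear_combination -h
  have hy3 : m * τ m = 1 := by
    have h := hy1 1
    simpa using h
  have hτ2 : ∀ a, τ (τ a) = a := by
    intro a
    have h := hy1 a
    rwa [hy3, one_mul] at h
  have hτl : τ l = l := by
    apply inv_aut_fix hq C.hF h2 τ hτ2 l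
    rw [hq]
    norm_num
    linear_combination l * hl3
  have hrel0 : C.A (y * x) 1 = C.A y (C.A x 1) := C.A_mul y x 1
  have hrel1 : C.A (x * x * y) 1 = C.A x (C.A x (C.A y 1)) := by rw [C.A_mul, C.A_mul]
  rw [hyx, hrel1] at hrel0
  simp only [hxA, hAy, map_one, mul_one, hτl] at hrel0
  have h11 : (l - 1) * (l * m) = 0 := by linear_combination hrel0
  rcases mul_eq_zero.mp h11 with h | h
  · exact hl1 (sub_eq_zero.mp h)
  · rcases mul_eq_zero.mp h with h | h
    · exact hl h
    · exact hm h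

end CoU

end Cfsg.Agent.Lib.Helper3.SuAut2
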