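import Mathlib
import Cfsg.Agent.Lib.Helper2.Unitary3
import Cfsg.Agent.Lib.Helper3.SuSyl

set_option autoImplicit false
set_option linter.unusedSectionVars false

namespace Cfsg.Agent.Lib.Helper3.SuSyl

open Matrix Cfsg.Agent.Lib.Helper2.Unitary Cfsg.Agent.Lib.Helper2.HermCount
  Cfsg.Agent.Lib.Helper3.SuAut1 Cfsg.Agent.Lib.Helper3.SuAut2

variable {F : Type*} [Field F] [Fintype F]

/-- the 2-part of the order of `SU₃(2ⁿ)`. -/
theorem fac_SU3 (n : ℕ) (hF : Fintype.card F = (2 ^ n) ^ 2) :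
    (Nat.card ↥(Cfsg.SU 3 F (2 ^ n))).factorization 2 = n * 3 := by
  have hq := two_le_q hF
  have hn : n ≠ 0 := by
    rintro rfl
    norm_num at hq
  obtain ⟨c, hc⟩ : ∃ c : ℕ, c = ((2 ^ n) ^ 2 - 1) * ((2 ^ n) ^ 3 + 1) := ⟨_, rfl⟩
  have hodd : Odd c := by
    have hev : Even (2 ^ n) := (Nat.even_pow' hn).mpr even_two
    rw [hc]
    apply Odd.mul
    · exact Nat.Even.sub_odd (Nat.one_le_pow _ _ (by positivity))
        ((Nat.even_pow' (by norm_num)).mpr hev) odd_one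
    · exact ((Nat.even_pow' (by norm_num)).mpr hev).add_one
  rw [card_SU3 hF, ← hc, ← pow_mul]
  have hc0 : c ≠ 0 := by
    rintro rfl
    simp at hodd
  rw [Nat.factorization_mul (pow_ne_zero _ two_ne_zero) hc0]
  simp only [Finsupp.coe_add, Pi.add_apply]
  rw [Nat.Prime.factorization_pow Nat.prime_two]
  have h3 : c.factorization 2 = 0 := by
    apply Nat.factorization_eq_zero_of_not_dvd
    intro h
    exact (Nat.not_even_iff_odd.mpr hodd) (even_iff_two_dvd.mpr h)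
  rw [h3]
  simp

/-- coordinates on any group isomorphic to a Sylow 2-subgroup of `PSU₃(2ⁿ)`. -/
theorem exists_coU_psu (n : ℕ) (hF : Fintype.card F = (2 ^ n) ^ 2)
    (S : Sylow 2 (Cfsg.PSU 3 F (2 ^ n))) {T : Type*} [Group T]
    (e : T ≃* ↥(S : Subgroup (Cfsg.PSU 3 F (2 ^ n)))) : Nonempty (CoU F (2 ^ n) T) := by
  have hfin : Finite (Matrix.SpecialLinearGroup (Fin 3) F) := finite_SL3
  have : Fact (Nat.Prime 2) := ⟨Nat.prime_two⟩
  have h2 : (2 : F) = 0 := by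
    rw [← pow_mul] at hF
    exact two_eq_zero_of_card hF
  have hq := two_le_q hF
  have hn : n ≠ 0 := by
    rintro rfl
    norm_num at hq
  have hZ : Odd (Nat.card (Subgroup.center ↥(Cfsg.SU 3 F (2 ^ n)))) := by
    rw [card_center_SU hF 3 (by norm_num)]
    have hodd : Odd (2 ^ n + 1) := ((Nat.even_pow' hn).mpr even_two).add_one
    exact Odd.of_dvd_nat hodd (Nat.gcd_dvd_right _ _)
  obtain ⟨f, hf'⟩ : ∃ f : ↥(Q hF h2) →* Cfsg.PSU 3 F (2 ^ n),
      ∀ x, f x = QuotientGroup.mk' (Subgroup.center ↥(Cfsg.SU 3 F (2 ^ n))) x.1 :=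
    ⟨(QuotientGroup.mk' (Subgroup.center ↥(Cfsg.SU 3 F (2 ^ n)))).comp (Q hF h2).subtype,
      fun x => rfl⟩
  have hf : Function.Injective f := by
    rw [injective_iff_map_eq_one]
    intro x hx
    rw [hf'] at hx
    have hx' : (x : ↥(Cfsg.SU 3 F (2 ^ n))) ∈ Subgroup.center ↥(Cfsg.SU 3 F (2 ^ n)) :=
      (QuotientGroup.eq_one_iff _).mp hx
    have h1 : orderOf (x : ↥(Cfsg.SU 3 F (2 ^ n))) ∣
        Nat.card (Subgroup.center ↥(Cfsg.SU 3 F (2 ^ n))) := by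
      have h := orderOf_dvd_natCard (⟨x.1, hx'⟩ : Subgroup.center ↥(Cfsg.SU 3 F (2 ^ n)))
      rwa [Subgroup.orderOf_mk] at h
    have h3 : orderOf (x : ↥(Cfsg.SU 3 F (2 ^ n))) ∣ (2 ^ n) ^ 3 := by
      rw [← (coQ hF h2).card, Subgroup.orderOf_coe]
      exact orderOf_dvd_natCard x
    have h4 : orderOf (x : ↥(Cfsg.SU 3 F (2 ^ n))) = 1 := by
      have hcop : Nat.Coprime ((2 ^ n) ^ 3)
          (Nat.card (Subgroup.center ↥(Cfsg.SU 3 F (2 ^ n)))) := by
        rw [← pow_mul]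
        exact Nat.Coprime.pow_left _ (Nat.coprime_two_left.mpr hZ)
      exact Nat.Coprime.eq_one_of_dvd (Nat.Coprime.coprime_dvd_left h3 hcop) h1
    exact Subtype.ext (orderOf_eq_one_iff.mp h4)
  have hcard : Nat.card f.range = 2 ^ (Nat.card (Cfsg.PSU 3 F (2 ^ n))).factorization 2 := by
    rw [← Nat.card_congr (MonoidHom.ofInjective hf).toEquiv, (coQ hF h2).card]
    have h5 : (Nat.card (Cfsg.PSU 3 F (2 ^ n))).factorization 2 = n * 3 := by
      have h6 := Subgroup.card_eq_card_quotient_mul_card_subgroup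
        (Subgroup.center ↥(Cfsg.SU 3 F (2 ^ n)))
      have h7 := fac_SU3 n hF
      rw [h6, Nat.factorization_mul (Nat.card_pos.ne') (Nat.card_pos.ne')] at h7
      simp only [Finsupp.coe_add, Pi.add_apply] at h7
      have h8 : (Nat.card (Subgroup.center ↥(Cfsg.SU 3 F (2 ^ n)))).factorization 2 = 0 := by
        apply Nat.factorization_eq_zero_of_not_dvd
        intro h
        exact (Nat.not_even_iff_odd.mpr hZ) (even_iff_two_dvd.mpr h)
      rw [h8, add_zero] at h7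
      exact h7
    rw [h5, ← pow_mul]
  obtain ⟨P2, hP2⟩ : ∃ P2 : Sylow 2 (Cfsg.PSU 3 F (2 ^ n)),
      (P2 : Subgroup (Cfsg.PSU 3 F (2 ^ n))) = f.range := ⟨Sylow.ofCard _ hcard, rfl⟩
  have e2 : (S : Subgroup (Cfsg.PSU 3 F (2 ^ n))) ≃* (P2 : Subgroup (Cfsg.PSU 3 F (2 ^ n))) :=
    Sylow.equiv S P2
  exact ⟨(coQ hF h2).transport (e.trans (e2.trans ((MulEquiv.subgroupCongr hP2).trans
    (MonoidHom.ofInjective hf).symm)))⟩

end Cfsg.Agent.Lib.Helper3.SuSyl
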