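import Mathlib
import Cfsg.Prelude.Def_Solvable
import Cfsg.Prelude.Def_Transfer
import Cfsg.Agent.Lib.Lead.Cores
import Cfsg.Agent.Lib.Helper3.SzAut1

set_option autoImplicit false
set_option linter.unusedSectionVars false

namespace Cfsg.Agent.Lib.Helper3.SzAut2

open Cfsg.Agent.Lib.Helper3.Sz1 Cfsg.Agent.Lib.Helper3.Sz6 Cfsg.Agent.Lib.Helper3.SzMax2
  Cfsg.Agent.Lib.Helper3.SzSub2 Cfsg.Agent.Lib.Helper3.SzOre1 Cfsg.Agent.Lib.Helper3.SzAut1
  Cfsg.Agent.Lib.Lead.Cores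

variable {F : Type*} [Field F] [Fintype F] {m : ℕ} {H : Type*} [Group H]

/-- coordinates of Suzuki 2-group type on a group. -/
structure Co (F : Type*) [Field F] (s : ℕ) (H : Type*) [Group H] where
  u : F → F → H
  hs : Hyp F s
  bij : Function.Bijective (fun p : F × F => u p.1 p.2)
  mul : ∀ a b c d : F, u c d * u a b = u (a + c) (b + d + c ^ s * a)

namespace Co

variable {s : ℕ} (C : Co F s H)

theorem inj {a b a' b' : F} (h : C.u a b = C.u a' b') : a = a' ∧ b = b' := by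
  have h1 := C.bij.1 (a₁ := (a, b)) (a₂ := (a', b')) h
  exact ⟨congrArg Prod.fst h1, congrArg Prod.snd h1⟩

theorem surj (h : H) : ∃ a b, C.u a b = h := by
  obtain ⟨⟨a, b⟩, hab⟩ := C.bij.2 h
  exact ⟨a, b, hab⟩

noncomputable def p1 (h : H) : F := (C.surj h).choose

noncomputable def p2 (h : H) : F := (C.surj h).choose_spec.choose

theorem u_p (h : H) : C.u (C.p1 h) (C.p2 h) = h := (C.surj h).choose_spec.choose_spec

theorem p1_u (a b : F) : C.p1 (C.u a b) = a := (C.inj (C.u_p (C.u a b))).1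

theorem p2_u (a b : F) : C.p2 (C.u a b) = b := (C.inj (C.u_p (C.u a b))).2

theorem p1_mul (x y : H) : C.p1 (x * y) = C.p1 x + C.p1 y := by
  obtain ⟨a, b, rfl⟩ := C.surj x
  obtain ⟨c, d, rfl⟩ := C.surj y
  rw [C.mul, C.p1_u, C.p1_u, C.p1_u, add_comm]

theorem sq (a b : F) : C.u a b * C.u a b = C.u 0 (a ^ s * a) := by
  rw [C.mul]
  congr 1
  · linear_combination a * C.hs.two
  · linear_combination b * C.hs.two

theorem split (a b : F) : C.u a b = C.u a 0 * C.u 0 b := by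
  rw [C.mul]
  congr 1 <;> ring

theorem zsq (b : F) : ∃ c : F, C.u 0 b = C.u c 0 * C.u c 0 := by
  obtain ⟨c, hc⟩ := N_surj C.hs b
  exact ⟨c, by rw [C.sq, hc]⟩

/-- the action of an automorphism on the quotient by the centre. -/
noncomputable def A (φ : MulAut H) (a : F) : F := C.p1 (φ (C.u a 0))

/-- the action of an automorphism on the centre. -/
noncomputable def B (φ : MulAut H) (b : F) : F := C.p2 (φ (C.u 0 b))

theorem p1_phi_z (φ : MulAut H) (b : F) : C.p1 (φ (C.u 0 b)) = 0 := by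
  obtain ⟨c, hc⟩ := C.zsq b
  rw [hc, map_mul, C.p1_mul]
  linear_combination (C.p1 (φ (C.u c 0))) * C.hs.two

theorem phi_z (φ : MulAut H) (b : F) : φ (C.u 0 b) = C.u 0 (C.B φ b) := by
  have h := C.u_p (φ (C.u 0 b))
  rw [C.p1_phi_z] at h
  exact h.symm

theorem p1_phi (φ : MulAut H) (a b : F) : C.p1 (φ (C.u a b)) = C.A φ a := by
  rw [C.split a b, map_mul, C.p1_mul, C.p1_phi_z, add_zero]
  rfl

theorem A_add (φ : MulAut H) (a c : F) : C.A φ (a + c) = C.A φ a + C.A φ c := by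
  have h : C.u c 0 * C.u a 0 = C.u (a + c) (0 + 0 + c ^ s * a) := C.mul a 0 c 0
  have h2 := congrArg (fun x => C.p1 (φ x)) h
  simp only [map_mul] at h2
  rw [C.p1_mul, C.p1_phi, C.p1_phi, C.p1_phi] at h2
  rw [← h2, add_comm]

theorem A_one (a : F) : C.A 1 a = a := by
  show C.p1 ((1 : MulAut H) (C.u a 0)) = a
  rw [MulAut.one_apply, C.p1_u]

theorem A_mul (φ ψ : MulAut H) (a : F) : C.A (φ * ψ) a = C.A φ (C.A ψ a) := by
  obtain ⟨a', b', h⟩ := C.surj (ψ (C.u a 0))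
  have h1 : C.A ψ a = a' := by
    show C.p1 (ψ (C.u a 0)) = a'
    rw [← h, C.p1_u]
  show C.p1 ((φ * ψ) (C.u a 0)) = _
  rw [MulAut.mul_apply, ← h, C.p1_phi, h1]

theorem A_inv (φ : MulAut H) (a : F) : C.A φ⁻¹ (C.A φ a) = a := by
  rw [← C.A_mul, inv_mul_cancel, C.A_one]

theorem A_surj (φ : MulAut H) : Function.Surjective (C.A φ) := fun y =>
  ⟨C.A φ⁻¹ y, by have h := C.A_inv φ⁻¹ y; rwa [inv_inv] at h⟩

/-- the homomorphism to the permutations of the quotient by the centre. -/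
noncomputable def Phi : MulAut H →* Equiv.Perm F where
  toFun φ :=
    { toFun := C.A φ
      invFun := C.A φ⁻¹
      left_inv := fun a => C.A_inv φ a
      right_inv := fun a => by have h := C.A_inv φ⁻¹ a; rwa [inv_inv] at h }
  map_one' := Equiv.ext (C.A_one)
  map_mul' φ ψ := Equiv.ext (C.A_mul φ ψ)

theorem Phi_apply (φ : MulAut H) (a : F) : C.Phi φ a = C.A φ a := rfl

theorem B_add (φ : MulAut H) (b b' : F) : C.B φ (b + b') = C.B φ b + C.B φ b' := by
  have h : C.u 0 b' * C.u 0 b = C.u (0 + 0) (b + b' + 0 ^ s * 0) := C.mul 0 b 0 b'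
  simp only [add_zero, mul_zero] at h
  have h2 := congrArg φ h
  rw [map_mul, C.phi_z, C.phi_z, C.phi_z, C.mul] at h2
  simp only [add_zero, mul_zero] at h2
  exact ((C.inj h2).2).symm

theorem B_N (φ : MulAut H) (a : F) : C.B φ (a ^ s * a) = C.A φ a ^ s * C.A φ a := by
  obtain ⟨a', b', h⟩ := C.surj (φ (C.u a 0))
  have h1 : C.A φ a = a' := by
    show C.p1 (φ (C.u a 0)) = a'
    rw [← h, C.p1_u]
  have h2 := congrArg φ (C.sq a 0)
  rw [map_mul, ← h, C.sq, C.phi_z] at h2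
  rw [h1]
  exact ((C.inj h2).2).symm

theorem B_inv (φ : MulAut H) (b : F) : C.B φ⁻¹ (C.B φ b) = b := by
  have h : φ⁻¹ (φ (C.u 0 b)) = C.u 0 b := by
    rw [← MulAut.mul_apply, inv_mul_cancel, MulAut.one_apply]
  rw [C.phi_z, C.phi_z] at h
  exact (C.inj h).2

theorem B_inj (φ : MulAut H) : Function.Injective (C.B φ) := fun x y h => by
  rw [← C.B_inv φ x, ← C.B_inv φ y, h]

theorem B_surj (φ : MulAut H) : Function.Surjective (C.B φ) := fun y =>
  ⟨C.B φ⁻¹ y, by have h := C.B_inv φ⁻¹ y; rwa [inv_inv] at h⟩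

theorem B_pol (φ : MulAut H) (a c : F) :
    C.B φ (a ^ s * c + c ^ s * a) = C.A φ a ^ s * C.A φ c + C.A φ c ^ s * C.A φ a := by
  have h1 := C.B_N φ (a + c)
  rw [C.A_add, C.hs.add, C.hs.add] at h1
  have e : (a ^ s + c ^ s) * (a + c) = a ^ s * a + (c ^ s * c + (a ^ s * c + c ^ s * a)) := by ring
  rw [e, C.B_add, C.B_add, C.B_N, C.B_N] at h1
  linear_combination h1

/-- the automorphism with given scalar and field automorphism. -/
theorem exists_aut (l : F) (hl : l ≠ 0) (σ : F ≃+* F) :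
    ∃ φ : MulAut H, ∀ a b, φ (C.u a b) = C.u (l * σ a) (l ^ s * l * σ b) := by
  obtain ⟨f, hf⟩ : ∃ f : H → H, ∀ a b, f (C.u a b) = C.u (l * σ a) (l ^ s * l * σ b) := by
    refine ⟨fun h => C.u (l * σ (C.p1 h)) (l ^ s * l * σ (C.p2 h)), fun a b => ?_⟩
    show C.u (l * σ (C.p1 (C.u a b))) (l ^ s * l * σ (C.p2 (C.u a b))) = _
    rw [C.p1_u, C.p2_u]
  have hmul : ∀ x y, f (x * y) = f x * f y := by
    intro x y
    obtain ⟨a, b, rfl⟩ := C.surj x
    obtain ⟨c, d, rfl⟩ := C.surj y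
    rw [C.mul, hf, hf, hf, C.mul]
    congr 1
    · rw [map_add]; ring
    · rw [map_add, map_add, map_mul, map_pow, mul_pow]; ring
  have hls : l ^ s * l ≠ 0 := mul_ne_zero (pow_ne_zero _ hl) hl
  have hinj : Function.Injective f := by
    intro x y hxy
    obtain ⟨a, b, rfl⟩ := C.surj x
    obtain ⟨c, d, rfl⟩ := C.surj y
    rw [hf, hf] at hxy
    obtain ⟨h1, h2⟩ := C.inj hxy
    rw [σ.injective (mul_left_cancel₀ hl h1), σ.injective (mul_left_cancel₀ hls h2)]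
  have hsurj : Function.Surjective f := by
    intro y
    obtain ⟨a, b, rfl⟩ := C.surj y
    refine ⟨C.u (σ.symm (a / l)) (σ.symm (b / (l ^ s * l))), ?_⟩
    rw [hf, RingEquiv.apply_symm_apply, RingEquiv.apply_symm_apply]
    congr 1 <;> field_simp
  exact ⟨MulEquiv.ofBijective (MonoidHom.mk' f hmul) ⟨hinj, hsurj⟩, hf⟩

theorem ker_A (φ : MulAut H) (hφ : φ ∈ C.Phi.ker) (a : F) : C.A φ a = a := by
  have h := congrArg (fun π : Equiv.Perm F => π a) (MonoidHom.mem_ker.mp hφ)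
  exact h

theorem ker_form (φ : MulAut H) (hφ : φ ∈ C.Phi.ker) (a b : F) :
    φ (C.u a b) = C.u a (b + C.p2 (φ (C.u a 0))) := by
  have hB : ∀ b, C.B φ b = b := by
    intro b
    obtain ⟨c, rfl⟩ := N_surj C.hs b
    rw [C.B_N, C.ker_A φ hφ]
  obtain ⟨f, hf⟩ : ∃ f, f = C.p2 (φ (C.u a 0)) := ⟨_, rfl⟩
  rw [← hf]
  have h1 : φ (C.u a 0) = C.u a f := by
    have h := C.u_p (φ (C.u a 0))
    have h2 : C.p1 (φ (C.u a 0)) = a := C.ker_A φ hφ a
    rw [h2, ← hf] at h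
    exact h.symm
  rw [C.split a b, map_mul, C.phi_z, hB, h1, C.mul]
  congr 1
  · ring
  · rw [mul_zero]; ring

theorem ker_form' (φ : MulAut H) (hφ : φ ∈ C.Phi.ker) :
    ∃ f : F → F, ∀ a b, φ (C.u a b) = C.u a (b + f a) :=
  ⟨fun a => C.p2 (φ (C.u a 0)), fun a b => C.ker_form φ hφ a b⟩

theorem ker_add (φ : MulAut H) (hφ : φ ∈ C.Phi.ker) (a c : F) :
    C.p2 (φ (C.u (a + c) 0)) = C.p2 (φ (C.u a 0)) + C.p2 (φ (C.u c 0)) := by
  have h : C.u c 0 * C.u a 0 = C.u (a + c) (c ^ s * a) := by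
    rw [C.mul]
    congr 1
    ring
  have h2 := congrArg φ h
  rw [map_mul, C.ker_form φ hφ c 0, C.ker_form φ hφ a 0, C.ker_form φ hφ (a + c) (c ^ s * a),
    C.mul] at h2
  have h3 := (C.inj h2).2
  linear_combination (-1 : F) * h3

theorem ker_comm (φ ψ : MulAut H) (hφ : φ ∈ C.Phi.ker) (hψ : ψ ∈ C.Phi.ker) :
    φ * ψ = ψ * φ := by
  obtain ⟨f, hf⟩ := C.ker_form' φ hφ
  obtain ⟨g, hg⟩ := C.ker_form' ψ hψ
  apply MulEquiv.ext
  intro h
  obtain ⟨a, b, rfl⟩ := C.surj h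
  rw [MulAut.mul_apply, MulAut.mul_apply, hg, hf, hf, hg]
  congr 1
  ring

theorem ker_sq (φ : MulAut H) (hφ : φ ∈ C.Phi.ker) : φ ^ 2 = 1 := by
  obtain ⟨f, hf⟩ := C.ker_form' φ hφ
  apply MulEquiv.ext
  intro h
  obtain ⟨a, b, rfl⟩ := C.surj h
  rw [pow_two, MulAut.mul_apply, MulAut.one_apply, hf, hf]
  congr 1
  linear_combination (f a) * C.hs.two

/-- the central automorphism attached to an additive map. -/
noncomputable def cf (f : F →+ F) (h : H) : H := C.u (C.p1 h) (C.p2 h + f (C.p1 h))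

theorem cf_u (f : F →+ F) (a b : F) : C.cf f (C.u a b) = C.u a (b + f a) := by
  unfold cf
  rw [C.p1_u, C.p2_u]

theorem cf_cf (f : F →+ F) (h : H) : C.cf f (C.cf f h) = h := by
  obtain ⟨a, b, rfl⟩ := C.surj h
  rw [C.cf_u, C.cf_u]
  congr 1
  linear_combination (f a) * C.hs.two

theorem cf_mul (f : F →+ F) (x y : H) : C.cf f (x * y) = C.cf f x * C.cf f y := by
  obtain ⟨a, b, rfl⟩ := C.surj x
  obtain ⟨c, d, rfl⟩ := C.surj y
  rw [C.mul, C.cf_u, C.cf_u, C.cf_u, C.mul]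
  congr 1
  rw [map_add]
  ring

noncomputable def cent (f : F →+ F) : MulAut H :=
  { toFun := C.cf f
    invFun := C.cf f
    left_inv := C.cf_cf f
    right_inv := C.cf_cf f
    map_mul' := C.cf_mul f }

theorem cent_u (f : F →+ F) (a b : F) : C.cent f (C.u a b) = C.u a (b + f a) := C.cf_u f a b

theorem cent_mem (f : F →+ F) : C.cent f ∈ C.Phi.ker := by
  rw [MonoidHom.mem_ker]
  ext a
  show C.p1 (C.cent f (C.u a 0)) = a
  rw [C.cent_u, C.p1_u]

/-- the kernel is the group of central automorphisms. -/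
noncomputable def kerEquiv : C.Phi.ker ≃ (F →+ F) where
  toFun φ := AddMonoidHom.mk' (fun a => C.p2 (φ.1 (C.u a 0))) (fun a c => C.ker_add φ.1 φ.2 a c)
  invFun f := ⟨C.cent f, C.cent_mem f⟩
  left_inv φ := by
    apply Subtype.ext
    apply MulEquiv.ext
    intro h
    obtain ⟨a, b, rfl⟩ := C.surj h
    show C.cent _ (C.u a b) = φ.1 (C.u a b)
    rw [C.cent_u, C.ker_form φ.1 φ.2 a b]
    rfl
  right_inv f := by
    apply AddMonoidHom.ext
    intro a
    show C.p2 (C.cent f (C.u a 0)) = f a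
    rw [C.cent_u, C.p2_u, zero_add]

end Co

/-- every automorphism acts on the quotient by the centre as a semilinear map. -/
theorem A_form (hm : 1 ≤ m) (hF : Fintype.card F = 2 ^ (2 * m + 1)) (C : Co F (2 ^ (m + 1)) H)
    (φ : MulAut H) : ∃ (l : F) (σ : F ≃+* F), l ≠ 0 ∧ ∀ a, C.A φ a = l * σ a := by
  have hs := C.hs
  have hB0 : C.B φ 0 = 0 := by
    have h := C.B_add φ 0 0
    rw [add_zero] at h
    linear_combination -h
  have hA0 : C.A φ 0 = 0 := by
    have h := C.A_add φ 0 0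
    rw [add_zero] at h
    linear_combination -h
  have hAne : ∀ a, a ≠ 0 → C.A φ a ≠ 0 := by
    intro a ha h
    apply ha
    have h1 := C.A_inv φ a
    rw [h] at h1
    have h2 := C.A_inv φ 0
    rw [hA0] at h2
    rw [← h1, h2]
  have hZ : ∀ x c : F, x * c ∈ (psi hs).range ↔
      C.B φ x * (C.B φ c⁻¹)⁻¹ ∈ (psi hs).range := by
    intro x c
    by_cases hc : c = 0
    · rw [hc, mul_zero, inv_zero, hB0, inv_zero, mul_zero]
    obtain ⟨a, ha⟩ := N_surj hs c⁻¹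
    have ha0 : a ≠ 0 := by
      rintro rfl
      rw [pow_s_zero hs, zero_mul] at ha
      exact (inv_ne_zero hc) ha.symm
    have hA := hAne a ha0
    have hc' : c = (a ^ 2 ^ (m + 1) * a)⁻¹ := by rw [ha, inv_inv]
    have hBc : C.B φ c⁻¹ = C.A φ a ^ 2 ^ (m + 1) * C.A φ a := by rw [← ha, C.B_N]
    constructor
    · rintro ⟨t, ht⟩
      have hx : x = a ^ 2 ^ (m + 1) * (a * t) + (a * t) ^ 2 ^ (m + 1) * a := by
        have h1 : x = (a ^ 2 ^ (m + 1) * a) * (t ^ 2 ^ (m + 1) + t) := by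
          rw [← psi_apply hs, ht, hc']
          field_simp
        rw [h1, mul_pow]
        ring
      rw [hx, C.B_pol, hBc]
      refine ⟨C.A φ (a * t) / C.A φ a, ?_⟩
      rw [psi_apply, div_pow]
      field_simp
      ring
    · rintro ⟨t, ht⟩
      obtain ⟨c0, hc0⟩ := C.A_surj φ (C.A φ a * t)
      have hBx : C.B φ x = C.B φ (a ^ 2 ^ (m + 1) * c0 + c0 ^ 2 ^ (m + 1) * a) := by
        rw [C.B_pol, hc0]
        have h1 : C.B φ x = (C.A φ a ^ 2 ^ (m + 1) * C.A φ a) * (t ^ 2 ^ (m + 1) + t) := by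
          rw [← psi_apply hs, ht, hBc]
          field_simp
        rw [h1, mul_pow]
        ring
      have hx := C.B_inj φ hBx
      refine ⟨c0 / a, ?_⟩
      rw [psi_apply, hx, hc', div_pow]
      field_simp
      ring
  have hgadd := gamma_add hs (C.B φ) (fun c => (C.B φ c⁻¹)⁻¹) (C.B_surj φ) hZ
  obtain ⟨μ, σ, hμ0, hB⟩ := hua hm hF (C.B φ) (C.B_add φ) (C.B_inj φ) hgadd
  obtain ⟨l, hl⟩ := N_surj hs μ
  have hl0 : l ≠ 0 := by
    rintro rfl
    rw [pow_s_zero hs, zero_mul] at hl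
    exact hμ0 hl.symm
  refine ⟨l, σ, hl0, fun a => ?_⟩
  apply pow_s1_inj hs
  rw [← C.B_N, hB, map_mul, map_pow, mul_pow, ← hl]
  ring

/-- the order of the image in the permutations of the central quotient. -/
theorem card_range (hm : 1 ≤ m) (hF : Fintype.card F = 2 ^ (2 * m + 1))
    (C : Co F (2 ^ (m + 1)) H) :
    Nat.card C.Phi.range = (2 * m + 1) * (2 ^ (2 * m + 1) - 1) := by
  have hs := C.hs
  obtain ⟨Ψ, hΨ⟩ : ∃ Ψ : Fˣ × (F ≃+* F) → Equiv.Perm F, ∀ p a, Ψ p a = (p.1 : F) * p.2 a := by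
    refine ⟨fun p =>
      { toFun := fun a => (p.1 : F) * p.2 a
        invFun := fun a => p.2.symm (((p.1⁻¹ : Fˣ) : F) * a)
        left_inv := fun a => by simp
        right_inv := fun a => by simp }, fun p a => rfl⟩
  have hΨinj : Function.Injective Ψ := by
    rintro ⟨l, σ⟩ ⟨l', σ'⟩ h
    have h1 : ∀ a, (l : F) * σ a = (l' : F) * σ' a := by
      intro a
      have h2 := congrArg (fun π : Equiv.Perm F => π a) h
      simp only [hΨ] at h2
      exact h2
    have hl : l = l' := by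
      have h3 := h1 1
      rw [map_one, map_one, mul_one, mul_one] at h3
      exact Units.ext h3
    subst hl
    have hσ : σ = σ' := RingEquiv.ext (fun a => mul_left_cancel₀ l.ne_zero (h1 a))
    rw [hσ]
  have hrange : (C.Phi.range : Set (Equiv.Perm F)) = Set.range Ψ := by
    ext π
    constructor
    · rintro ⟨φ, rfl⟩
      obtain ⟨l, σ, hl, h⟩ := A_form hm hF C φ
      refine ⟨(Units.mk0 l hl, σ), Equiv.ext (fun a => ?_)⟩
      rw [hΨ, C.Phi_apply, h]
      rfl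
    · rintro ⟨⟨l, σ⟩, rfl⟩
      obtain ⟨φ, hφ⟩ := C.exists_aut (l : F) l.ne_zero σ
      refine ⟨φ, Equiv.ext (fun a => ?_)⟩
      rw [hΨ]
      show C.p1 (φ (C.u a 0)) = (l : F) * σ a
      rw [hφ, C.p1_u]
  have h1 : Nat.card C.Phi.range = Nat.card (Set.range Ψ) :=
    Nat.card_congr (Equiv.setCongr hrange)
  rw [h1, ← Nat.card_congr (Equiv.ofInjective Ψ hΨinj), Nat.card_prod,
    card_ringAut (2 * m + 1) hF hs.two, Nat.card_units, Nat.card_eq_fintype_card, hF, mul_comm]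

/-- the automorphism group of a Suzuki 2-group of type `A(n, θ)`. -/
theorem main (hm : 1 ≤ m) (hF : Fintype.card F = 2 ^ (2 * m + 1)) (C : Co F (2 ^ (m + 1)) H) :
    Cfsg.IsElementaryAbelian 2 (Cfsg.pCore 2 (MulAut H)) ∧
    Nat.card ↥(Cfsg.pCore 2 (MulAut H)) = 2 ^ ((2 * m + 1) ^ 2) ∧
    Nat.card (MulAut H) = 2 ^ ((2 * m + 1) ^ 2) * ((2 * m + 1) * (2 ^ (2 * m + 1) - 1)) := by
  have hs := C.hs
  have hK : Nat.card C.Phi.ker = 2 ^ ((2 * m + 1) ^ 2) := by
    rw [Nat.card_congr C.kerEquiv, card_addHom (2 * m + 1) hF hs.two]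
  have hR := card_range hm hF C
  have hG : Nat.card (MulAut H) =
      2 ^ ((2 * m + 1) ^ 2) * ((2 * m + 1) * (2 ^ (2 * m + 1) - 1)) := by
    rw [← Subgroup.card_mul_index C.Phi.ker, Subgroup.index_ker, hK, hR]
  have hodd : Odd ((2 * m + 1) * (2 ^ (2 * m + 1) - 1)) := by
    apply Odd.mul ⟨m, rfl⟩
    apply Nat.Even.sub_odd Nat.one_le_two_pow _ odd_one
    exact (Nat.even_pow).mpr ⟨even_two, by omega⟩
  have hcore : Cfsg.pCore 2 (MulAut H) = C.Phi.ker := by
    have : Fact (Nat.Prime 2) := ⟨Nat.prime_two⟩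
    apply le_antisymm
    · intro x hx
      obtain ⟨k, hk⟩ := (pCore_isPGroup (G := MulAut H) 2) ⟨x, hx⟩
      have hk' : x ^ 2 ^ k = 1 := by simpa using congrArg Subtype.val hk
      have h1 : (C.Phi x) ^ 2 ^ k = 1 := by rw [← map_pow, hk', map_one]
      have h2 : (C.Phi x) ^ Nat.card C.Phi.range = 1 := by
        have h := pow_card_eq_one' (G := C.Phi.range) (x := ⟨C.Phi x, x, rfl⟩)
        simpa using congrArg Subtype.val h
      have h3 := pow_gcd_eq_one.mpr ⟨h1, h2⟩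
      have hcop : Nat.gcd (2 ^ k) (Nat.card C.Phi.range) = 1 := by
        rw [hR]
        exact Nat.Coprime.pow_left k (Nat.coprime_two_left.mpr hodd)
      rw [hcop, pow_one] at h3
      exact MonoidHom.mem_ker.mpr h3
    · exact le_pCore (MonoidHom.normal_ker _) (IsPGroup.of_card hK)
  refine ⟨?_, ?_, hG⟩
  · rw [hcore]
    exact ⟨⟨⟨fun a b => Subtype.ext (C.ker_comm a.1 b.1 a.2 b.2)⟩⟩, fun a ha => C.ker_sq a ha⟩
  · rw [hcore, hK]

end Cfsg.Agent.Lib.Helper3.SzAut2
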