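import Mathlib
import Cfsg.Prelude.Def_LieExceptional
import Cfsg.Agent.Lib.Helper3.SzOre1

set_option autoImplicit false
set_option linter.unusedSectionVars false

namespace Cfsg.Agent.Lib.Helper3.SzOre2

open Matrix Cfsg.Agent.Lib.Helper3.Sz1 Cfsg.Agent.Lib.Helper3.Sz2 Cfsg.Agent.Lib.Helper3.Sz3
  Cfsg.Agent.Lib.Helper3.Sz4 Cfsg.Agent.Lib.Helper3.Sz5 Cfsg.Agent.Lib.Helper3.Sz6
  Cfsg.Agent.Lib.Helper3.Sz7 Cfsg.Agent.Lib.Helper3.Sz9 Cfsg.Agent.Lib.Helper3.Sz10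
  Cfsg.Agent.Lib.Helper3.Sz11 Cfsg.Agent.Lib.Helper3.Sz15 Cfsg.Agent.Lib.Helper3.SzR
  Cfsg.Agent.Lib.Helper3.SzFix1 Cfsg.Agent.Lib.Helper3.SzFix2 Cfsg.Agent.Lib.Helper3.SzSub2
  Cfsg.Agent.Lib.Helper3.SzMax1 Cfsg.Agent.Lib.Helper3.SzMax2
  Cfsg.Agent.Lib.Helper14.SzTori Cfsg.Agent.Lib.Helper3.SzSol1 Cfsg.Agent.Lib.Helper3.SzSol2
  Cfsg.Agent.Lib.Helper3.SzSol3 Cfsg.Agent.Lib.Helper3.SzSol4 Cfsg.Agent.Lib.Helper3.SzSol5
  Cfsg.Agent.Lib.Helper3.SzFix3 Cfsg.Agent.Lib.Helper3.SzMax3 Cfsg.Agent.Lib.Helper3.SzSol6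
  Cfsg.Agent.Lib.Helper3.SzSol7 Cfsg.Agent.Lib.Helper3.SzSol8 Cfsg.Agent.Lib.Helper3.SzOre1

variable {F : Type*} [Field F] [Fintype F] {m : ℕ}

theorem D_wS (hm : 1 ≤ m) (hF : Fintype.card F = 2 ^ (2 * m + 1)) (k : Fˣ) :
    DHom hm hF k * wS hm hF = wS hm hF * DHom hm hF k⁻¹ := by
  have h := wS_D hm hF k⁻¹
  rw [inv_inv] at h
  exact h.symm

theorem Nf_D (hm : 1 ≤ m) (hF : Fintype.card F = 2 ^ (2 * m + 1)) (k : Fˣ) (b1 b2 : F) :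
    DHom hm hF k * Nf hm hF b1 b2 * (DHom hm hF k)⁻¹ =
      Nf hm hF ((k : F) ^ (2 ^ (m + 1) + 2) * b1)
        (((k⁻¹ : Fˣ) : F) ^ (2 ^ (m + 1) + 2) * b2) := by
  have h1 := D_u hm hF k 0 b1
  have h2 := D_u hm hF k⁻¹ 0 b2
  rw [mul_zero] at h1 h2
  have h3 := D_wS hm hF k
  have h4 : wS hm hF * (DHom hm hF k)⁻¹ = (DHom hm hF k⁻¹)⁻¹ * wS hm hF := by
    rw [← map_inv, ← map_inv, inv_inv, wS_D, inv_inv]
  unfold Nf
  calc DHom hm hF k * (u hm hF 0 b1 * (wS hm hF * u hm hF 0 b2 * wS hm hF)) * (DHom hm hF k)⁻¹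
      = (DHom hm hF k * u hm hF 0 b1 * (DHom hm hF k)⁻¹) * ((DHom hm hF k * wS hm hF) *
          u hm hF 0 b2 * (wS hm hF * (DHom hm hF k)⁻¹)) := by group
    _ = (DHom hm hF k * u hm hF 0 b1 * (DHom hm hF k)⁻¹) * ((wS hm hF * DHom hm hF k⁻¹) *
          u hm hF 0 b2 * ((DHom hm hF k⁻¹)⁻¹ * wS hm hF)) := by rw [h3, h4]
    _ = (DHom hm hF k * u hm hF 0 b1 * (DHom hm hF k)⁻¹) * (wS hm hF * (DHom hm hF k⁻¹ *
          u hm hF 0 b2 * (DHom hm hF k⁻¹)⁻¹) * wS hm hF) := by group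
    _ = _ := by rw [h1, h2]

theorem Nf_conj (hm : 1 ≤ m) (hF : Fintype.card F = 2 ^ (2 * m + 1)) {b1 b2 c1 c2 : F}
    (hb1 : b1 ≠ 0) (hc1 : c1 ≠ 0) (h : b1 * b2 = c1 * c2) :
    ∃ g : ↥(Cfsg.Sz F m), Nf hm hF c1 c2 = g * Nf hm hF b1 b2 * g⁻¹ := by
  have hs := hyp_of_card hm hF
  obtain ⟨k, hk⟩ := upow_s2 hs (div_ne_zero hc1 hb1)
  refine ⟨DHom hm hF k, ?_⟩
  rw [Nf_D, hk]
  have e1 : c1 / b1 * b1 = c1 := by field_simp
  have e2 : ((k⁻¹ : Fˣ) : F) ^ (2 ^ (m + 1) + 2) * b2 = c2 := by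
    rw [Units.val_inv_eq_inv_val, inv_pow, hk]
    field_simp
    linear_combination h
  rw [e1, e2]

theorem tr_of_pow4 (hm : 1 ≤ m) (hF : Fintype.card F = 2 ^ (2 * m + 1)) {a : ↥(Cfsg.Sz F m)}
    (h : a ^ 4 = 1) : tr a = 0 := by
  by_cases h1 : a = 1
  · rw [h1, ← u_zero hm hF]
    exact tr_u hm hF 0 0
  · obtain ⟨g, c, d, -, rfl⟩ := type_two hm hF h1 (orderOf_dvd_of_pow_eq_one h)
    rw [tr_conj]
    exact tr_u hm hF c d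

theorem sq_ne_of_pow4 {a : ↥(Cfsg.Sz F m)} (h : a ^ 4 ≠ 1) : a * a ≠ 1 := by
  intro h2
  apply h
  rw [pow4_eq, h2, mul_one]

/-- every element of order not dividing `4` is conjugate to a normal form. -/
theorem ss_Nf (hm : 1 ≤ m) (hF : Fintype.card F = 2 ^ (2 * m + 1)) {x : ↥(Cfsg.Sz F m)}
    (hx : x ^ 4 ≠ 1) :
    ∃ (h : ↥(Cfsg.Sz F m)) (b1 b2 : F), b1 ≠ 0 ∧ b2 ≠ 0 ∧ x = h * Nf hm hF b1 b2 * h⁻¹ := by
  have hfin : Finite (Matrix.SpecialLinearGroup (Fin 4) F) := finite_SL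
  have hx1 : x ≠ 1 := by
    rintro rfl
    exact hx (one_pow 4)
  have hxx := sq_ne_of_pow4 hx
  have hw := wS_sq hm hF
  rcases tri hm hF x hx1 with ⟨g, k, hk, rfl⟩ | ⟨g, a, b, hab, rfl⟩ | hfpf
  · have e : g * DHom hm hF k * g⁻¹ =
        (g * (DHom hm hF k * wS hm hF) * g⁻¹) * (g * wS hm hF * g⁻¹) := by
      calc g * DHom hm hF k * g⁻¹ = g * DHom hm hF k * (wS hm hF * wS hm hF) * g⁻¹ := by
            rw [hw, mul_one]
        _ = _ := by group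
    rw [e] at hxx ⊢
    apply conj_Nf_of_invols hm hF _ _ _ _ hxx
    · intro h
      exact DwS_ne_one hm hF k (conj_eq_one_iff.mp h)
    · calc g * (DHom hm hF k * wS hm hF) * g⁻¹ * (g * (DHom hm hF k * wS hm hF) * g⁻¹)
          = g * (DHom hm hF k * (wS hm hF * DHom hm hF k) * wS hm hF) * g⁻¹ := by group
        _ = g * (DHom hm hF k * (DHom hm hF k⁻¹ * wS hm hF) * wS hm hF) * g⁻¹ := by rw [wS_D]
        _ = g * ((DHom hm hF k * DHom hm hF k⁻¹) * (wS hm hF * wS hm hF)) * g⁻¹ := by group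
        _ = 1 := by rw [hw, ← map_mul, mul_inv_cancel, map_one, mul_one, mul_one, mul_inv_cancel]
    · intro h
      exact wS_ne_one hm hF (conj_eq_one_iff.mp h)
    · calc g * wS hm hF * g⁻¹ * (g * wS hm hF * g⁻¹) = g * (wS hm hF * wS hm hF) * g⁻¹ := by group
        _ = 1 := by rw [hw, mul_one, mul_inv_cancel]
  · exact absurd (u_pow4 hm hF g a b) hx
  · have hV := tor_of_fpf hm hF hfpf
    have hcN := ((main hm hF).1 x hfpf).2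
    unfold cN cA at hcN
    have h2 : 2 ∣ Nat.card ↥(Subgroup.normalizer
        ((Subgroup.centralizer ({x} : Set ↥(Cfsg.Sz F m)) : Subgroup ↥(Cfsg.Sz F m)) :
          Set ↥(Cfsg.Sz F m))) := by
      rw [hcN]
      exact Dvd.intro _ (by ring : 2 * (2 * Nat.card ↥(Subgroup.centralizer
        ({x} : Set ↥(Cfsg.Sz F m)))) = 4 * _)
    have : Fact (Nat.Prime 2) := ⟨Nat.prime_two⟩
    obtain ⟨n, hn⟩ := exists_prime_orderOf_dvd_card' 2 h2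
    have hn2 : n.1 * n.1 = 1 := by
      have h9 : n ^ 2 = 1 := by rw [← hn]; exact pow_orderOf_eq_one n
      have h8 := congrArg Subtype.val h9
      rw [pow_two] at h8
      exact h8
    have hn1 : n.1 ≠ 1 := by
      intro h9
      have h8 : n = 1 := Subtype.ext h9
      rw [h8, orderOf_one] at hn
      omega
    have hinv := hV.inv n.2 hn2 hn1 (self_mem_cent x)
    have hni : n.1⁻¹ = n.1 := inv_eq_of_mul_eq_one_left hn2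
    rw [hni] at hinv
    have e : x = n.1 * (n.1 * x) := by rw [← mul_assoc, hn2, one_mul]
    have hxx' : n.1 * (n.1 * x) * (n.1 * (n.1 * x)) ≠ 1 := by rw [← e]; exact hxx
    obtain ⟨h, b1, b2, hb1, hb2, e'⟩ := conj_Nf_of_invols hm hF hn1 hn2 (j := n.1 * x)
      (by
        intro h9
        apply hxx
        have h8 : x = n.1 := by
          calc x = n.1 * (n.1 * x) := e
            _ = n.1 := by rw [h9, mul_one]
        rw [h8, hn2])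
      (by
        calc n.1 * x * (n.1 * x) = (n.1 * x * n.1) * x := by group
          _ = 1 := by rw [hinv, inv_mul_cancel]) hxx'
    exact ⟨h, b1, b2, hb1, hb2, e.trans e'⟩

/-- trace classification: an element with the trace of an element of order not dividing `4`
is conjugate to it. -/
theorem conj_of_tr (hm : 1 ≤ m) (hF : Fintype.card F = 2 ^ (2 * m + 1)) {x a : ↥(Cfsg.Sz F m)}
    (hx : x ^ 4 ≠ 1) (h : tr a = tr x) : ∃ g : ↥(Cfsg.Sz F m), a = g * x * g⁻¹ := by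
  have hs := hyp_of_card hm hF
  obtain ⟨h1, b1, b2, hb1, hb2, rfl⟩ := ss_Nf hm hF hx
  rw [tr_conj, tr_Nf] at h
  have hne : (b1 * b2) ^ (2 ^ (m + 1)) ≠ 0 := pow_ne_zero _ (mul_ne_zero hb1 hb2)
  have ha4 : a ^ 4 ≠ 1 := by
    intro h4
    rw [tr_of_pow4 hm hF h4] at h
    exact hne h.symm
  obtain ⟨h2, c1, c2, hc1, hc2, rfl⟩ := ss_Nf hm hF ha4
  rw [tr_conj, tr_Nf] at h
  obtain ⟨h3, e3⟩ := Nf_conj hm hF hb1 hc1 (pow_s_inj hs h).symm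
  refine ⟨h2 * h3 * h1⁻¹, ?_⟩
  rw [e3]
  group

theorem tr_ne_zero (hm : 1 ≤ m) (hF : Fintype.card F = 2 ^ (2 * m + 1)) {x : ↥(Cfsg.Sz F m)}
    (hx : x ^ 4 ≠ 1) : tr x ≠ 0 := by
  obtain ⟨h1, b1, b2, hb1, hb2, rfl⟩ := ss_Nf hm hF hx
  rw [tr_conj, tr_Nf]
  exact pow_ne_zero _ (mul_ne_zero hb1 hb2)

/-- elements of order not dividing `4` are real. -/
theorem inv_conj_ss (hm : 1 ≤ m) (hF : Fintype.card F = 2 ^ (2 * m + 1)) {x : ↥(Cfsg.Sz F m)}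
    (hx : x ^ 4 ≠ 1) : ∃ k : ↥(Cfsg.Sz F m), x⁻¹ = k * x * k⁻¹ := by
  obtain ⟨h1, b1, b2, hb1, hb2, rfl⟩ := ss_Nf hm hF hx
  have hL := L_sq hm hF b2
  have hu := u0_sq hm hF b1
  have hLi : (wS hm hF * u hm hF 0 b2 * wS hm hF)⁻¹ = wS hm hF * u hm hF 0 b2 * wS hm hF :=
    inv_eq_of_mul_eq_one_left hL
  have hui : (u hm hF 0 b1)⁻¹ = u hm hF 0 b1 := inv_eq_of_mul_eq_one_left hu
  refine ⟨h1 * (wS hm hF * u hm hF 0 b2 * wS hm hF) * h1⁻¹, ?_⟩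
  unfold Nf
  have e1 : (h1 * (u hm hF 0 b1 * (wS hm hF * u hm hF 0 b2 * wS hm hF)) * h1⁻¹)⁻¹ =
      h1 * ((wS hm hF * u hm hF 0 b2 * wS hm hF)⁻¹ * (u hm hF 0 b1)⁻¹) * h1⁻¹ := by group
  have e2 : h1 * (wS hm hF * u hm hF 0 b2 * wS hm hF) * h1⁻¹ *
      (h1 * (u hm hF 0 b1 * (wS hm hF * u hm hF 0 b2 * wS hm hF)) * h1⁻¹) *
      (h1 * (wS hm hF * u hm hF 0 b2 * wS hm hF) * h1⁻¹)⁻¹ =
      h1 * ((wS hm hF * u hm hF 0 b2 * wS hm hF) * u hm hF 0 b1 *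
        ((wS hm hF * u hm hF 0 b2 * wS hm hF) * (wS hm hF * u hm hF 0 b2 * wS hm hF)⁻¹)) * h1⁻¹ := by
    group
  rw [e1, e2, hLi, hui, hL, mul_one]

end Cfsg.Agent.Lib.Helper3.SzOre2
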