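import Mathlib
import Cfsg.Prelude.Def_LieExceptional
import Cfsg.Agent.Lib.Helper3.SzOre2

set_option autoImplicit false
set_option linter.unusedSectionVars false

namespace Cfsg.Agent.Lib.Helper3.SzOre3

open Matrix Cfsg.Agent.Lib.Helper3.Sz1 Cfsg.Agent.Lib.Helper3.Sz2 Cfsg.Agent.Lib.Helper3.Sz3
  Cfsg.Agent.Lib.Helper3.Sz4 Cfsg.Agent.Lib.Helper3.Sz5 Cfsg.Agent.Lib.Helper3.Sz6
  Cfsg.Agent.Lib.Helper3.Sz7 Cfsg.Agent.Lib.Helper3.Sz9 Cfsg.Agent.Lib.Helper3.Sz10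
  Cfsg.Agent.Lib.Helper3.Sz11 Cfsg.Agent.Lib.Helper3.Sz15 Cfsg.Agent.Lib.Helper3.SzR
  Cfsg.Agent.Lib.Helper3.SzFix1 Cfsg.Agent.Lib.Helper3.SzFix2 Cfsg.Agent.Lib.Helper3.SzSub2
  Cfsg.Agent.Lib.Helper3.SzMax1 Cfsg.Agent.Lib.Helper3.SzMax2
  Cfsg.Agent.Lib.Helper14.SzTori Cfsg.Agent.Lib.Helper3.SzSol1 Cfsg.Agent.Lib.Helper3.SzSol2
  Cfsg.Agent.Lib.Helper3.SzSol3 Cfsg.Agent.Lib.Helper3.SzSol4 Cfsg.Agent.Lib.Helper3.SzSol5
  Cfsg.Agent.Lib.Helper3.SzFix3 Cfsg.Agent.Lib.Helper3.SzMax3 Cfsg.Agent.Lib.Helper3.SzSol6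
  Cfsg.Agent.Lib.Helper3.SzSol7 Cfsg.Agent.Lib.Helper3.SzSol8 Cfsg.Agent.Lib.Helper3.SzOre1
  Cfsg.Agent.Lib.Helper3.SzOre2

section gen

variable {G : Type*} [Group G]

theorem conj_sq_aux (j i y j' : G) (hy : y * y = 1) (hi : i * i = 1) :
    j * j' = (j * (y * i * y)) * ((y * i * y) * j') := by
  have e : (y * i * y) * (y * i * y) = 1 := by
    calc (y * i * y) * (y * i * y) = y * i * (y * y) * i * y := by group
      _ = y * (i * i) * y := by rw [hy]; group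
      _ = 1 := by rw [hi, mul_one, hy]
  calc j * j' = j * ((y * i * y) * (y * i * y)) * j' := by rw [e, mul_one]
    _ = _ := by group

theorem num_aux (q r Q c p : ℕ) (hr : r + 4 ≤ q) (h5 : 4 * q ≤ Q) (hP : Q + 1 ≤ p + 2)
    (hle : p ≤ c) (hC : c ≤ q + r + 1) : False := by omega

end gen

variable {F : Type*} [Field F] [Fintype F] {m : ℕ}

theorem tr_aux1 (j y L : ↥(Cfsg.Sz F m)) (hc : y * j = j * y) (hy : y * y = 1) :
    tr (j * (y * L * y)) = tr (j * L) := by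
  have e1 : j * (y * L * y) = (j * y * L) * y := by group
  have e2 : y * (j * y * L) = (y * j) * y * L := by group
  have e3 : j * y * y * L = j * (y * y) * L := by group
  rw [e1, tr_mul_comm, e2, hc, e3, hy, mul_one]

/-- both elements of order not dividing `4`. -/
theorem ss_ss (hm : 1 ≤ m) (hF : Fintype.card F = 2 ^ (2 * m + 1)) {x g : ↥(Cfsg.Sz F m)}
    (hx : x ^ 4 ≠ 1) (hg : g ^ 4 ≠ 1) : InSq x g := by
  have hs := hyp_of_card hm hF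
  obtain ⟨h0, β1, β2, hβ1, hβ2, rfl⟩ := ss_Nf hm hF hg
  apply InSq.conj
  obtain ⟨h1, b1, b2, hb1, hb2, hxe⟩ := ss_Nf hm hF hx
  have htx : tr x = (b1 * b2) ^ (2 ^ (m + 1)) := by rw [hxe, tr_conj, tr_Nf]
  obtain ⟨y, hy⟩ := sqroot hF (β1 / β2)
  have hyy := u0_sq hm hF y
  obtain ⟨β, hβ⟩ : ∃ β : F, β = b1 * b2 / β1 := ⟨_, rfl⟩
  have hc : u hm hF 0 y * u hm hF 0 β1 = u hm hF 0 β1 * u hm hF 0 y := u0_comm hm hF y 0 β1
  have ha : tr (u hm hF 0 β1 * (u hm hF 0 y * (wS hm hF * u hm hF 0 β * wS hm hF) *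
      u hm hF 0 y)) = tr x := by
    rw [tr_aux1 _ _ _ hc hyy]
    have e : u hm hF 0 β1 * (wS hm hF * u hm hF 0 β * wS hm hF) = Nf hm hF β1 β := rfl
    rw [e, tr_Nf, htx]
    congr 1
    rw [hβ]
    field_simp
  have hb : tr ((u hm hF 0 y * (wS hm hF * u hm hF 0 β * wS hm hF) * u hm hF 0 y) *
      (wS hm hF * u hm hF 0 β2 * wS hm hF)) = tr x := by
    rw [tr_four, htx]
    have e : (y ^ (2 ^ (m + 1))) ^ 2 = (y ^ 2) ^ (2 ^ (m + 1)) := by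
      rw [← pow_mul, ← pow_mul, mul_comm]
    rw [e, hy, ← mul_pow]
    congr 1
    rw [hβ]
    field_simp
  obtain ⟨k1, hk1⟩ := conj_of_tr hm hF hx ha
  obtain ⟨k2, hk2⟩ := conj_of_tr hm hF hx hb
  have e : Nf hm hF β1 β2 = _ * _ :=
    conj_sq_aux (u hm hF 0 β1) (wS hm hF * u hm hF 0 β * wS hm hF) (u hm hF 0 y)
      (wS hm hF * u hm hF 0 β2 * wS hm hF) hyy (L_sq hm hF β)
  rw [e]
  exact inSq_mul ⟨k1, hk1⟩ ⟨k2, hk2⟩

theorem wuD_conj (hm : 1 ≤ m) (hF : Fintype.card F = 2 ^ (2 * m + 1)) {w1 w2 : F} {l1 l2 : Fˣ}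
    (h : tr (wS hm hF * u hm hF 0 w1 * DHom hm hF l1) =
      tr (wS hm hF * u hm hF 0 w2 * DHom hm hF l2)) :
    ∃ κ : Fˣ, DHom hm hF κ * (wS hm hF * u hm hF 0 w1 * DHom hm hF l1) * (DHom hm hF κ)⁻¹ =
      wS hm hF * u hm hF 0 w2 * DHom hm hF l2 := by
  have hs := hyp_of_card hm hF
  obtain ⟨κ, hκ⟩ := usqroot hF (l1 * l2⁻¹)
  refine ⟨κ, ?_⟩
  have h3 := D_wS hm hF κ
  have h2 := D_u hm hF κ⁻¹ 0 w1
  rw [mul_zero] at h2
  have hl : κ⁻¹ * l1 * κ⁻¹ = l2 := by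
    have e : l1 = κ * l2 * κ := by
      rw [mul_comm κ l2, mul_assoc, ← pow_two, hκ, mul_comm l1, ← mul_assoc, mul_inv_cancel,
        one_mul]
    rw [e]
    group
  have e1 : DHom hm hF κ * (wS hm hF * u hm hF 0 w1 * DHom hm hF l1) * (DHom hm hF κ)⁻¹ =
      wS hm hF * u hm hF 0 (((κ⁻¹ : Fˣ) : F) ^ (2 ^ (m + 1) + 2) * w1) * DHom hm hF l2 := by
    calc DHom hm hF κ * (wS hm hF * u hm hF 0 w1 * DHom hm hF l1) * (DHom hm hF κ)⁻¹
        = (DHom hm hF κ * wS hm hF) * u hm hF 0 w1 * DHom hm hF l1 * (DHom hm hF κ)⁻¹ := by group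
      _ = wS hm hF * DHom hm hF κ⁻¹ * u hm hF 0 w1 * DHom hm hF l1 * (DHom hm hF κ)⁻¹ := by rw [h3]
      _ = wS hm hF * (DHom hm hF κ⁻¹ * u hm hF 0 w1 * (DHom hm hF κ⁻¹)⁻¹) *
            (DHom hm hF κ⁻¹ * DHom hm hF l1 * (DHom hm hF κ)⁻¹) := by group
      _ = _ := by rw [h2, ← map_inv, ← map_mul, ← map_mul, hl]
  rw [e1]
  have ht : tr (wS hm hF * u hm hF 0 (((κ⁻¹ : Fˣ) : F) ^ (2 ^ (m + 1) + 2) * w1) *
      DHom hm hF l2) = tr (wS hm hF * u hm hF 0 w2 * DHom hm hF l2) := by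
    rw [← e1, tr_conj, h]
  rw [tr_wuD, tr_wuD] at ht
  have h0 := pow_s_zero hs
  have h1 : (0 : F) ^ (2 ^ (m + 1) + 2) = 0 := zero_pow (Nat.succ_ne_zero _)
  simp only [fq, h0, h1, zero_mul, zero_add] at ht
  have hu : ((l2⁻¹ : Fˣ) : F) ^ (2 ^ (m + 1) + 1) ≠ 0 := pow_ne_zero _ (Units.ne_zero _)
  have ht' := mul_right_cancel₀ hu ht
  rw [pow_s_inj hs ht']

/-- some conjugate mapping `∞` to `0` has a non-zero first parameter. -/
theorem exists_z_ne (hm : 1 ≤ m) (hF : Fintype.card F = 2 ^ (2 * m + 1)) {x : ↥(Cfsg.Sz F m)}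
    (hx : x ^ 4 ≠ 1) :
    ∃ (h : ↥(Cfsg.Sz F m)) (z w : F) (l : Fˣ), z ≠ 0 ∧
      h * x * h⁻¹ = wS hm hF * u hm hF z w * DHom hm hF l := by
  classical
  have hfin : Finite (Matrix.SpecialLinearGroup (Fin 4) F) := finite_SL
  have hs := hyp_of_card hm hF
  by_contra hcon
  push Not at hcon
  have hx1 : x ≠ 1 := by
    rintro rfl
    exact hx (one_pow 4)
  have hdata : Nat.card ↥(Subgroup.centralizer ({x} : Set ↥(Cfsg.Sz F m))) ≤
      2 ^ (2 * m + 1) + 2 ^ (m + 1) + 1 ∧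
      ∃ p1 p2 : Projectivization F (Fin 4 → F), ∀ p ∈ Cfsg.suzukiOvoid F m,
        x.1 • p = p → p = p1 ∨ p = p2 := by
    rcases tri hm hF x hx1 with ⟨g, k, hk, rfl⟩ | ⟨g, a, b, hab, rfl⟩ | hfpf
    · constructor
      · have h := (Cfsg.Agent.Lib.Helper14.SzPart.typeD_cent hm hF (g * DHom hm hF k * g⁻¹) g⁻¹ k
          hk (by
            show g.1⁻¹ * (g.1 * D (2 ^ (m + 1)) k * g.1⁻¹) * g.1⁻¹⁻¹ = _
            group)).2
        rw [h]
        exact (Nat.sub_le _ _).trans ((Nat.le_add_right _ _).trans (Nat.le_add_right _ _))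
      · exact ⟨_, _, fun p hp h => Dg_fix hm hF g hk hp h⟩
    · exact absurd (u_pow4 hm hF g a b) hx
    · constructor
      · have h := ((main hm hF).1 x hfpf).1
        unfold cA at h
        rcases h with h | h
        · rw [h]
        · rw [h]
          exact Nat.add_le_add_right ((Nat.sub_le _ _).trans (Nat.le_add_right _ _)) 1
      · exact ⟨Cfsg.suzukiPointInfinity F, Cfsg.suzukiPointInfinity F,
          fun p hp h => absurd h (hfpf p hp)⟩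
  obtain ⟨hC, p1, p2, hfix⟩ := hdata
  obtain ⟨P, hP⟩ : ∃ P : Set (Projectivization F (Fin 4 → F)),
      P = {p | p ∈ Cfsg.suzukiOvoid F m ∧ x.1 • p ≠ p} := ⟨_, rfl⟩
  have hPcard : (2 ^ (2 * m + 1)) ^ 2 + 1 ≤ P.ncard + 2 := by
    have hsub : Cfsg.suzukiOvoid F m ⊆ P ∪ {p1, p2} := by
      intro p hp
      by_cases h : x.1 • p = p
      · exact Set.mem_union_right _ (by
          rw [Set.mem_insert_iff, Set.mem_singleton_iff]
          exact hfix p hp h)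
      · exact Set.mem_union_left _ (by rw [hP]; exact ⟨hp, h⟩)
    have h1 := Set.ncard_le_ncard hsub (Set.toFinite _)
    have h2 := Set.ncard_union_le P {p1, p2}
    have h3 : ({p1, p2} : Set (Projectivization F (Fin 4 → F))).ncard ≤ 2 :=
      (Set.ncard_insert_le p1 {p2}).trans (by rw [Set.ncard_singleton])
    rw [card_ovoid hF] at h1
    omega
  have hkey : ∀ p ∈ P, ∃ (h : ↥(Cfsg.Sz F m)) (w : F) (l : Fˣ),
      h.1 • p = Cfsg.suzukiPointInfinity F ∧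
        h * x * h⁻¹ = wS hm hF * u hm hF 0 w * DHom hm hF l := by
    intro p hpP
    rw [hP] at hpP
    obtain ⟨hp, hxp⟩ := hpP
    obtain ⟨g, hg, hgp, hgxp⟩ := two_trans hm hF hp (smul_mem_ovoid x.2 hp) (Ne.symm hxp)
    lift g to ↥(Cfsg.Sz F m) using hg
    have h1 : g.1⁻¹ • Cfsg.suzukiPointInfinity F = p := by rw [← hgp, inv_smul_smul]
    have hfixinf : (wS hm hF * (g * x * g⁻¹)).1 • Cfsg.suzukiPointInfinity F =
        Cfsg.suzukiPointInfinity F := by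
      show (W hs * (g.1 * x.1 * g.1⁻¹)) • _ = _
      rw [mul_smul, mul_smul, mul_smul, h1, hgxp, W_pZero]
    obtain ⟨z, w, l, hzwl⟩ := stab_one hm hF (wS hm hF * (g * x * g⁻¹)).2 hfixinf
    have e : g * x * g⁻¹ = wS hm hF * u hm hF z w * DHom hm hF l := by
      have e1 : wS hm hF * (g * x * g⁻¹) = u hm hF z w * DHom hm hF l := Subtype.ext hzwl
      calc g * x * g⁻¹ = (wS hm hF * wS hm hF) * (g * x * g⁻¹) := by rw [wS_sq, one_mul]
        _ = wS hm hF * (wS hm hF * (g * x * g⁻¹)) := by group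
        _ = _ := by rw [e1]; group
    have hz : z = 0 := by
      by_contra hz
      exact hcon g z w l hz e
    rw [hz] at e
    exact ⟨g, w, l, hgp, e⟩
  have hr := r_le_q hm
  have hq4 : 4 ≤ 2 ^ (2 * m + 1) := le_trans (Nat.le_add_left _ _) hr
  have h5 : 4 * 2 ^ (2 * m + 1) ≤ (2 ^ (2 * m + 1)) ^ 2 := by
    rw [pow_two]
    exact Nat.mul_le_mul_right _ hq4
  have hPne : P.Nonempty := by
    apply Set.nonempty_of_ncard_ne_zero
    intro h0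
    rw [h0] at hPcard
    omega
  obtain ⟨p0, hp0⟩ := hPne
  obtain ⟨h0, w0, l0, hh0, e0⟩ := hkey p0 hp0
  have hmap : ∀ p ∈ P, ∃ c : ↥(Subgroup.centralizer ({x} : Set ↥(Cfsg.Sz F m))),
      c.1.1 • p0 = p := by
    intro p hp
    obtain ⟨h, w, l, hh, e⟩ := hkey p hp
    have htr : tr (wS hm hF * u hm hF 0 w * DHom hm hF l) =
        tr (wS hm hF * u hm hF 0 w0 * DHom hm hF l0) := by
      rw [← e, ← e0, tr_conj, tr_conj]
    obtain ⟨κ, hκ⟩ := wuD_conj hm hF htr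
    rw [← e, ← e0] at hκ
    refine ⟨⟨h⁻¹ * (DHom hm hF κ)⁻¹ * h0, ?_⟩, ?_⟩
    · rw [mem_cent_iff]
      have e9 : x = h⁻¹ * (DHom hm hF κ)⁻¹ * (h0 * x * h0⁻¹) * DHom hm hF κ * h := by
        rw [← hκ]
        group
      calc h⁻¹ * (DHom hm hF κ)⁻¹ * h0 * x
          = (h⁻¹ * (DHom hm hF κ)⁻¹ * (h0 * x * h0⁻¹) * DHom hm hF κ * h) *
            (h⁻¹ * (DHom hm hF κ)⁻¹ * h0) := by group
        _ = x * (h⁻¹ * (DHom hm hF κ)⁻¹ * h0) := by rw [← e9]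
    · show (h.1⁻¹ * (D (2 ^ (m + 1)) κ)⁻¹ * h0.1) • p0 = p
      rw [mul_smul, mul_smul, hh0, inv_smul_eq_iff.mpr (D_pInf _ κ).symm, ← hh, inv_smul_smul]
  choose! φ hφ using hmap
  have hinj : Function.Injective (fun p : ↥P => φ p.1) := by
    intro p p' h
    have h' : φ p.1 = φ p'.1 := h
    apply Subtype.ext
    rw [← hφ p.1 p.2, ← hφ p'.1 p'.2, h']
  have hle := Nat.card_le_card_of_injective _ hinj
  rw [Nat.card_coe_set_eq] at hle
  exact num_aux _ _ _ _ _ hr h5 hPcard hle hC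

end Cfsg.Agent.Lib.Helper3.SzOre3
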