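import Mathlib
import Cfsg.Prelude.Def_LieExceptional
import Cfsg.Agent.Lib.Helper3.SzOre3

set_option autoImplicit false
set_option linter.unusedSectionVars false

namespace Cfsg.Agent.Lib.Helper3.SzOre4

open Matrix Cfsg.Agent.Lib.Helper3.Sz1 Cfsg.Agent.Lib.Helper3.Sz2 Cfsg.Agent.Lib.Helper3.Sz3
  Cfsg.Agent.Lib.Helper3.Sz4 Cfsg.Agent.Lib.Helper3.Sz5 Cfsg.Agent.Lib.Helper3.Sz6
  Cfsg.Agent.Lib.Helper3.Sz7 Cfsg.Agent.Lib.Helper3.Sz9 Cfsg.Agent.Lib.Helper3.Sz10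
  Cfsg.Agent.Lib.Helper3.Sz11 Cfsg.Agent.Lib.Helper3.Sz15 Cfsg.Agent.Lib.Helper3.SzR
  Cfsg.Agent.Lib.Helper3.SzFix1 Cfsg.Agent.Lib.Helper3.SzFix2 Cfsg.Agent.Lib.Helper3.SzSub2
  Cfsg.Agent.Lib.Helper3.SzMax1 Cfsg.Agent.Lib.Helper3.SzMax2
  Cfsg.Agent.Lib.Helper14.SzTori Cfsg.Agent.Lib.Helper3.SzSol1 Cfsg.Agent.Lib.Helper3.SzSol2
  Cfsg.Agent.Lib.Helper3.SzSol3 Cfsg.Agent.Lib.Helper3.SzSol4 Cfsg.Agent.Lib.Helper3.SzSol5
  Cfsg.Agent.Lib.Helper3.SzFix3 Cfsg.Agent.Lib.Helper3.SzMax3 Cfsg.Agent.Lib.Helper3.SzSol6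
  Cfsg.Agent.Lib.Helper3.SzSol7 Cfsg.Agent.Lib.Helper3.SzSol8 Cfsg.Agent.Lib.Helper3.SzOre1
  Cfsg.Agent.Lib.Helper3.SzOre2 Cfsg.Agent.Lib.Helper3.SzOre3

variable {F : Type*} [Field F] [Fintype F] {m : ℕ}

theorem u_inv_eq (hm : 1 ≤ m) (hF : Fintype.card F = 2 ^ (2 * m + 1)) (z w : F) :
    (u hm hF z w)⁻¹ = u hm hF z (w + z ^ (2 ^ (m + 1)) * z) := by
  have h2 := (hyp_of_card hm hF).two
  apply inv_eq_of_mul_eq_one_right
  rw [u_mul, ← u_zero hm hF]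
  congr 1
  · linear_combination z * h2
  · linear_combination (w + z ^ 2 ^ (m + 1) * z) * h2

/-- an element of order not dividing `4` and a unipotent target. -/
theorem ss_unip (hm : 1 ≤ m) (hF : Fintype.card F = 2 ^ (2 * m + 1)) {x : ↥(Cfsg.Sz F m)}
    (hx : x ^ 4 ≠ 1) (c d : F) (hcd : ¬ (c = 0 ∧ d = 0)) : InSq x (u hm hF c d) := by
  have hs := hyp_of_card hm hF
  have h2 := hs.two
  obtain ⟨h, z, w, l, hz, hconj⟩ := exists_z_ne hm hF hx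
  obtain ⟨k, hk⟩ := inv_conj_ss hm hF hx
  have ha' : ∃ g : ↥(Cfsg.Sz F m),
      (wS hm hF * u hm hF z w * DHom hm hF l)⁻¹ = g * x * g⁻¹ := by
    refine ⟨h * k, ?_⟩
    rw [← hconj]
    calc (h * x * h⁻¹)⁻¹ = h * x⁻¹ * h⁻¹ := by group
      _ = _ := by rw [hk]; group
  have htr : tr (wS hm hF * u hm hF z w * DHom hm hF l) = tr x := by rw [← hconj, tr_conj]
  have hl0 : (l : F) ^ (2 ^ (m + 1) + 2) ≠ 0 := pow_ne_zero _ l.ne_zero
  by_cases hc : c = 0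
  · have hd : d ≠ 0 := fun h => hcd ⟨hc, h⟩
    subst hc
    obtain ⟨γ', hγ'⟩ : ∃ γ' : F, γ' = z ^ (2 ^ (m + 1) + 1) := ⟨_, rfl⟩
    have hγ0 : γ' ≠ 0 := by rw [hγ']; exact pow_ne_zero _ hz
    obtain ⟨δ, hδ⟩ : ∃ δ : F, δ = γ' / (l : F) ^ (2 ^ (m + 1) + 2) := ⟨_, rfl⟩
    have hδ0 : δ ≠ 0 := by rw [hδ]; exact div_ne_zero hγ0 hl0
    have hD := D_u hm hF l 0 δ
    rw [mul_zero] at hD
    have hDe : (l : F) ^ (2 ^ (m + 1) + 2) * δ = γ' := by rw [hδ]; field_simp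
    rw [hDe] at hD
    have hD' := mul_inv_eq_iff_eq_mul.mp hD
    have e1 : wS hm hF * u hm hF z w * DHom hm hF l * u hm hF 0 δ =
        wS hm hF * u hm hF z (γ' + w) * DHom hm hF l := by
      calc wS hm hF * u hm hF z w * DHom hm hF l * u hm hF 0 δ
          = wS hm hF * u hm hF z w * (DHom hm hF l * u hm hF 0 δ) := by group
        _ = wS hm hF * (u hm hF z w * u hm hF 0 γ') * DHom hm hF l := by rw [hD']; group
        _ = _ := by rw [u_mul, zero_add, mul_zero, add_zero]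
    have htr2 : tr (wS hm hF * u hm hF z w * DHom hm hF l * u hm hF 0 δ) = tr x := by
      rw [e1, tr_wuD, ← htr, tr_wuD]
      have e : γ' ^ (2 ^ (m + 1)) = z * γ' := by
        rw [hγ', pow_succ, mul_pow, hs.sq]
        ring
      have e' : fq (2 ^ (m + 1)) z (γ' + w) = fq (2 ^ (m + 1)) z w := by
        simp only [fq, hs.add]
        linear_combination e + (z * γ') * h2
      rw [e']
    obtain ⟨k2, hk2⟩ := conj_of_tr hm hF hx htr2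
    have h1 : InSq x (u hm hF 0 δ) := by
      have e : u hm hF 0 δ = (wS hm hF * u hm hF z w * DHom hm hF l)⁻¹ *
          (wS hm hF * u hm hF z w * DHom hm hF l * u hm hF 0 δ) := by group
      rw [e]
      exact inSq_mul ha' ⟨k2, hk2⟩
    obtain ⟨κ, hκ⟩ := upow_s2 hs (div_ne_zero hd hδ0)
    have e2 : u hm hF 0 d = DHom hm hF κ * u hm hF 0 δ * (DHom hm hF κ)⁻¹ := by
      rw [D_u, mul_zero, hκ]
      congr 1
      field_simp
    rw [e2]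
    exact h1.conj _
  · obtain ⟨w'', hw''⟩ := sroot hF (tr x * (l : F) ^ (2 ^ (m + 1) + 1))
    have htr3 : tr (wS hm hF * u hm hF 0 w'' * DHom hm hF l) = tr x := by
      rw [tr_wuD]
      have h0 := pow_s_zero hs
      have h1 : (0 : F) ^ (2 ^ (m + 1) + 2) = 0 := zero_pow (Nat.succ_ne_zero _)
      have hl1 : (l : F) ^ (2 ^ (m + 1) + 1) ≠ 0 := pow_ne_zero _ l.ne_zero
      simp only [fq, h0, h1, hw'']
      rw [Units.val_inv_eq_inv_val, inv_pow]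
      field_simp
      ring
    obtain ⟨k3, hk3⟩ := conj_of_tr hm hF hx htr3
    have ha'' : ∃ g : ↥(Cfsg.Sz F m),
        (wS hm hF * u hm hF 0 w'' * DHom hm hF l)⁻¹ = g * x * g⁻¹ := by
      refine ⟨k3 * k, ?_⟩
      rw [hk3]
      calc (k3 * x * k3⁻¹)⁻¹ = k3 * x⁻¹ * k3⁻¹ := by group
        _ = _ := by rw [hk]; group
    obtain ⟨c', d', hc'0, hρ⟩ : ∃ c' d' : F, c' ≠ 0 ∧
        (wS hm hF * u hm hF z w * DHom hm hF l)⁻¹ * (wS hm hF * u hm hF 0 w'' * DHom hm hF l) =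
          u hm hF c' d' := by
      refine ⟨((l⁻¹ : Fˣ) : F) ^ (2 ^ (m + 1)) * z,
        ((l⁻¹ : Fˣ) : F) ^ (2 ^ (m + 1) + 2) * (w'' + (w + z ^ (2 ^ (m + 1)) * z)),
        mul_ne_zero (pow_ne_zero _ (Units.ne_zero _)) hz, ?_⟩
      rw [← D_u hm hF l⁻¹ z (w'' + (w + z ^ (2 ^ (m + 1)) * z))]
      have e1 : (u hm hF z w)⁻¹ * u hm hF 0 w'' =
          u hm hF z (w'' + (w + z ^ (2 ^ (m + 1)) * z)) := by
        rw [u_inv_eq, u_mul, zero_add, mul_zero, add_zero]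
      rw [← e1, map_inv, inv_inv]
      calc (wS hm hF * u hm hF z w * DHom hm hF l)⁻¹ *
            (wS hm hF * u hm hF 0 w'' * DHom hm hF l)
          = (DHom hm hF l)⁻¹ * ((u hm hF z w)⁻¹ * ((wS hm hF)⁻¹ * wS hm hF) * u hm hF 0 w'') *
              DHom hm hF l := by group
        _ = _ := by rw [inv_mul_cancel, mul_one]
    have hin1 : InSq x (u hm hF c' d') := by
      rw [← hρ]
      exact inSq_mul ha' ⟨k3, hk3⟩
    have hin2 : InSq x (u hm hF c' d')⁻¹ := by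
      have e : (u hm hF c' d')⁻¹ = (wS hm hF * u hm hF 0 w'' * DHom hm hF l)⁻¹ *
          (wS hm hF * u hm hF z w * DHom hm hF l) := by
        rw [← hρ]
        group
      rw [e]
      exact inSq_mul ha'' ⟨h, hconj.symm⟩
    obtain ⟨κ, hκ⟩ := usroot hF (div_ne_zero hc'0 hc)
    have e3 := D_u hm hF κ c d
    have e4 : c' / c * c = c' := by field_simp
    rw [hκ, e4] at e3
    apply InSq.of_conj (DHom hm hF κ)
    rw [e3]
    obtain ⟨g1, hg1 | hg1⟩ := root_conj hm hF hc'0 d' ((κ : F) ^ (2 ^ (m + 1) + 2) * d)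
    · rw [hg1]
      exact hin1.conj _
    · rw [hg1]
      exact hin2.conj _

/-- products of two conjugates of `u 1 e` inside `U`. -/
theorem four_four (hm : 1 ≤ m) (hF : Fintype.card F = 2 ^ (2 * m + 1)) (e e' : F) :
    InSq (u hm hF 1 e) (u hm hF 1 e') := by
  have hs := hyp_of_card hm hF
  have h2 := hs.two
  obtain ⟨α, hα0, hα1⟩ := exists_ne_zero_one hm hF
  have hA0 : α ^ (2 ^ (m + 1)) * α ≠ 0 := mul_ne_zero (pow_ne_zero _ hα0) hα0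
  obtain ⟨μ, hμ⟩ := sroot hF ((α ^ (2 ^ (m + 1)) * α)⁻¹)
  have hAμ : α ^ (2 ^ (m + 1)) * α * μ ^ (2 ^ (m + 1)) = 1 := by
    rw [hμ]
    exact mul_inv_cancel₀ hA0
  have hne : 1 + α ^ (2 ^ (m + 1)) * α * μ ≠ 0 := by
    intro h
    have h1 : α ^ (2 ^ (m + 1)) * α * μ = 1 := by linear_combination h - h2
    have h3 : μ ^ (2 ^ (m + 1)) + μ = 0 := by
      have h9 : α ^ (2 ^ (m + 1)) * α * (μ ^ (2 ^ (m + 1)) - μ) = 0 := by
        linear_combination hAμ - h1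
      rcases mul_eq_zero.mp h9 with h9 | h9
      · exact absurd h9 hA0
      · linear_combination h9 + μ * h2
    rcases ker_K hs h3 with h9 | h9
    · rw [h9, mul_zero] at h1
      exact zero_ne_one h1
    · rw [h9, mul_one] at h1
      exact hα1 (pow_s1_inj hs (by rw [h1, one_pow, one_mul]))
  obtain ⟨κ, hκ⟩ := usroot hF hα0
  have h1α : (1 : F) + α ≠ 0 := by
    intro h
    apply hα1
    linear_combination h - h2
  obtain ⟨κ', hκ'⟩ := usroot hF h1α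
  obtain ⟨v1, hv1⟩ : ∃ v1 : F, (1 + α ^ (2 ^ (m + 1)) * α * μ) * v1 =
      ((1 + α) ^ (2 ^ (m + 1)) * (1 + α)) * e' + e + α ^ (2 ^ (m + 1)) * α * e + α :=
    ⟨(((1 + α) ^ (2 ^ (m + 1)) * (1 + α)) * e' + e + α ^ (2 ^ (m + 1)) * α * e + α) /
      (1 + α ^ (2 ^ (m + 1)) * α * μ), by field_simp⟩
  have ea : u hm hF v1 0 * u hm hF 1 e * (u hm hF v1 0)⁻¹ =
      u hm hF 1 (e + v1 ^ (2 ^ (m + 1)) + v1) := by
    rw [u_conj]
    congr 1
    rw [one_pow]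
    ring
  have eb : DHom hm hF κ * (u hm hF (μ * v1) 0 * u hm hF 1 e * (u hm hF (μ * v1) 0)⁻¹) *
      (DHom hm hF κ)⁻¹ =
      u hm hF α (α ^ (2 ^ (m + 1)) * α * (e + (μ * v1) ^ (2 ^ (m + 1)) + μ * v1)) := by
    rw [u_conj, D_u, hκ]
    have e9 : (κ : F) ^ (2 ^ (m + 1) + 2) = α ^ (2 ^ (m + 1)) * α := by
      rw [pow_add, hκ, ← hs.sq (κ : F), hκ]
      ring
    rw [e9, one_pow]
    congr 1
    · ring
    · ring
  have etgt : DHom hm hF κ' * u hm hF 1 e' * (DHom hm hF κ')⁻¹ =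
      u hm hF (1 + α) ((1 + α) ^ (2 ^ (m + 1)) * (1 + α) * e') := by
    rw [D_u, hκ']
    have e9 : (κ' : F) ^ (2 ^ (m + 1) + 2) = (1 + α) ^ (2 ^ (m + 1)) * (1 + α) := by
      rw [pow_add, hκ', ← hs.sq (κ' : F), hκ']
      ring
    rw [e9, mul_one]
  have eprod : u hm hF 1 (e + v1 ^ (2 ^ (m + 1)) + v1) *
      u hm hF α (α ^ (2 ^ (m + 1)) * α * (e + (μ * v1) ^ (2 ^ (m + 1)) + μ * v1)) =
      u hm hF (1 + α) ((1 + α) ^ (2 ^ (m + 1)) * (1 + α) * e') := by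
    rw [u_mul]
    congr 1
    · ring
    · rw [one_pow, mul_pow]
      linear_combination hv1 + (v1 ^ (2 ^ (m + 1))) * hAμ +
        (α ^ (2 ^ (m + 1)) * α * e + e + α + v1 ^ (2 ^ (m + 1))) * h2
  have h1 : InSq (u hm hF 1 e) (DHom hm hF κ' * u hm hF 1 e' * (DHom hm hF κ')⁻¹) := by
    rw [etgt, ← eprod, ← ea, ← eb]
    exact inSq_mul ⟨u hm hF v1 0, rfl⟩ ⟨DHom hm hF κ * u hm hF (μ * v1) 0, by group⟩
  exact InSq.of_conj _ h1

end Cfsg.Agent.Lib.Helper3.SzOre4
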