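import Mathlib
import Cfsg.Prelude.Def_LieExceptional
import Cfsg.Agent.Lib.Helper3.SzOre4

set_option autoImplicit false
set_option linter.unusedSectionVars false

namespace Cfsg.Agent.Lib.Helper3.SzOre5

open Matrix Cfsg.Agent.Lib.Helper3.Sz1 Cfsg.Agent.Lib.Helper3.Sz2 Cfsg.Agent.Lib.Helper3.Sz3
  Cfsg.Agent.Lib.Helper3.Sz4 Cfsg.Agent.Lib.Helper3.Sz5 Cfsg.Agent.Lib.Helper3.Sz6
  Cfsg.Agent.Lib.Helper3.Sz7 Cfsg.Agent.Lib.Helper3.Sz9 Cfsg.Agent.Lib.Helper3.Sz10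
  Cfsg.Agent.Lib.Helper3.Sz11 Cfsg.Agent.Lib.Helper3.Sz15 Cfsg.Agent.Lib.Helper3.SzR
  Cfsg.Agent.Lib.Helper3.SzFix1 Cfsg.Agent.Lib.Helper3.SzFix2 Cfsg.Agent.Lib.Helper3.SzSub2
  Cfsg.Agent.Lib.Helper3.SzMax1 Cfsg.Agent.Lib.Helper3.SzMax2
  Cfsg.Agent.Lib.Helper14.SzTori Cfsg.Agent.Lib.Helper3.SzSol1 Cfsg.Agent.Lib.Helper3.SzSol2
  Cfsg.Agent.Lib.Helper3.SzSol3 Cfsg.Agent.Lib.Helper3.SzSol4 Cfsg.Agent.Lib.Helper3.SzSol5
  Cfsg.Agent.Lib.Helper3.SzFix3 Cfsg.Agent.Lib.Helper3.SzMax3 Cfsg.Agent.Lib.Helper3.SzSol6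
  Cfsg.Agent.Lib.Helper3.SzSol7 Cfsg.Agent.Lib.Helper3.SzSol8 Cfsg.Agent.Lib.Helper3.SzOre1
  Cfsg.Agent.Lib.Helper3.SzOre2 Cfsg.Agent.Lib.Helper3.SzOre3 Cfsg.Agent.Lib.Helper3.SzOre4

variable {F : Type*} [Field F] [Fintype F] {m : ℕ}

/-- some value of `γ ^ 2 + t γ ^ (s + 2)` is not of the form `v ^ s + v`. -/
theorem exists_not_K (hm : 1 ≤ m) (hF : Fintype.card F = 2 ^ (2 * m + 1)) {t : F} (ht0 : t ≠ 0) :
    ∃ γ : F, ∀ v : F, γ ^ 2 + t * γ ^ (2 ^ (m + 1) + 2) ≠ v ^ (2 ^ (m + 1)) + v := by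
  have hs := hyp_of_card hm hF
  have h2 := hs.two
  by_contra hcon
  push Not at hcon
  obtain ⟨ω, hω0, hω1⟩ := exists_ne_zero_one hm hF
  have hk0 : ω ^ (2 ^ (m + 1)) + ω ^ 2 ≠ 0 := by
    intro h
    have h1 : ω ^ (2 ^ (m + 1)) = ω ^ 2 := by linear_combination h - ω ^ 2 * h2
    have h3 : ω ^ 2 = (ω ^ 2) ^ 2 := by
      have h9 := congrArg (fun z => z ^ (2 ^ (m + 1))) h1
      have e : (ω ^ 2) ^ (2 ^ (m + 1)) = (ω ^ (2 ^ (m + 1))) ^ 2 := by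
        rw [← pow_mul, ← pow_mul, mul_comm]
      rw [hs.sq, e, h1] at h9
      exact h9
    have h4 : ω ^ 2 * (ω - 1) ^ 2 = 0 := by
      linear_combination (-1 : F) * h3 + (ω ^ 2 - ω ^ 3) * h2
    rcases mul_eq_zero.mp h4 with h9 | h9
    · exact hω0 ((pow_eq_zero_iff two_ne_zero).mp h9)
    · exact hω1 (by linear_combination (pow_eq_zero_iff two_ne_zero).mp h9)
  obtain ⟨γ, hγ⟩ := pow_s2_surj hs ((t * (ω ^ (2 ^ (m + 1)) + ω ^ 2))⁻¹)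
  have e3 : t * (ω ^ (2 ^ (m + 1)) + ω ^ 2) * γ ^ (2 ^ (m + 1) + 2) = 1 := by
    rw [hγ]
    exact mul_inv_cancel₀ (mul_ne_zero ht0 hk0)
  obtain ⟨v1, hv1⟩ := hcon γ
  obtain ⟨v2, hv2⟩ := hcon (γ * ω)
  obtain ⟨v3, hv3⟩ := hcon (γ + γ * ω)
  have e1 : (γ + γ * ω) ^ (2 ^ (m + 1) + 2) =
      (γ ^ (2 ^ (m + 1)) + (γ * ω) ^ (2 ^ (m + 1))) * (γ + γ * ω) ^ 2 := by
    rw [pow_add, hs.add]
  apply one_not_K hs (v1 + v2 + v3)
  rw [hs.add, hs.add]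
  linear_combination (-1 : F) * hv1 - hv2 - hv3 + t * e1 + e3 +
    (γ ^ 2 + (γ * ω) ^ 2 + γ * (γ * ω) + t * (γ ^ (2 ^ (m + 1)) * γ ^ 2 +
      (γ * ω) ^ (2 ^ (m + 1)) * (γ * ω) ^ 2 +
      γ * (γ * ω) * (γ ^ (2 ^ (m + 1)) + (γ * ω) ^ (2 ^ (m + 1))))) * h2

/-- an element of order `4` and a target of order not dividing `4`. -/
theorem four_ss (hm : 1 ≤ m) (hF : Fintype.card F = 2 ^ (2 * m + 1)) (e : F)
    {g : ↥(Cfsg.Sz F m)} (hg : g ^ 4 ≠ 1) : InSq (u hm hF 1 e) g := by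
  have hs := hyp_of_card hm hF
  have h2 := hs.two
  have ht0 := tr_ne_zero hm hF hg
  obtain ⟨t, ht⟩ : ∃ t : F, t = tr g := ⟨_, rfl⟩
  rw [← ht] at ht0
  obtain ⟨γ, hγ⟩ := exists_not_K hm hF ht0
  have hγ0 : γ ≠ 0 := by
    rintro rfl
    apply hγ 0
    rw [pow_s_zero hs, zero_pow two_ne_zero, zero_pow (Nat.succ_ne_zero _), mul_zero, add_zero]
  obtain ⟨A, hA⟩ := sqroot hF (γ ^ 2 + t * γ ^ (2 ^ (m + 1) + 2))
  have hAK : ∀ v : F, A ≠ v ^ (2 ^ (m + 1)) + v := by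
    intro v hv
    apply hγ (v ^ 2)
    rw [← hA, hv]
    have e9 : (v ^ 2) ^ (2 ^ (m + 1)) = (v ^ (2 ^ (m + 1))) ^ 2 := by
      rw [← pow_mul, ← pow_mul, mul_comm]
    rw [e9]
    linear_combination (v ^ (2 ^ (m + 1)) * v) * h2
  obtain ⟨τ, hτ | hτ⟩ := as_surj hm hF A
  · exact absurd hτ (hAK τ)
  · obtain ⟨ε, v, hε1, hε2⟩ : ∃ ε v : F, ε = e + v ^ (2 ^ (m + 1)) + v ∧
        ε ^ (2 ^ (m + 1)) + ε + 1 = A := by
      obtain ⟨v, hv | hv⟩ := as_surj hm hF (τ + e)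
      · refine ⟨τ, v, ?_, hτ.symm⟩
        linear_combination hv - e * h2
      · refine ⟨τ + 1, v, ?_, ?_⟩
        · linear_combination hv + (1 - e) * h2
        · rw [hs.add, one_pow, hτ]
          linear_combination h2
    obtain ⟨π, hπ⟩ : ∃ π : F, π * γ = 1 := ⟨γ⁻¹, inv_mul_cancel₀ hγ0⟩
    have hπ0 : π ≠ 0 := by
      rintro rfl
      rw [zero_mul] at hπ
      exact zero_ne_one hπ
    have hπs : π ^ (2 ^ (m + 1)) * γ ^ (2 ^ (m + 1)) = 1 := by rw [← mul_pow, hπ, one_pow]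
    obtain ⟨κ, hκ⟩ := usroot hF hπ0
    have ea : u hm hF v 0 * u hm hF 1 e * (u hm hF v 0)⁻¹ = u hm hF 1 ε := by
      rw [u_conj, hε1]
      congr 1
      rw [one_pow]
      ring
    have eb : DHom hm hF κ * u hm hF 1 ε * (DHom hm hF κ)⁻¹ =
        u hm hF π (π ^ (2 ^ (m + 1)) * π * ε) := by
      rw [D_u, hκ]
      have e9 : (κ : F) ^ (2 ^ (m + 1) + 2) = π ^ (2 ^ (m + 1)) * π := by
        rw [pow_add, hκ, ← hs.sq (κ : F), hκ]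
        ring
      rw [e9, mul_one]
    have htr : tr (u hm hF 1 ε * (wS hm hF * u hm hF π (π ^ (2 ^ (m + 1)) * π * ε) *
        wS hm hF)) = tr g := by
      rw [tr_uL, ← ht]
      simp only [fq, one_pow, mul_pow]
      rw [hs.sq π]
      linear_combination (π ^ (2 ^ (m + 1)) * π ^ 2 * (ε ^ (2 ^ (m + 1)) + ε + 1 + A)) * hε2 +
        (π ^ (2 ^ (m + 1)) * π ^ 2) * hA +
        (π ^ (2 ^ (m + 1)) * (π * γ + 1) + t * (π * γ + 1)) * hπ +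
        (t * (π * γ) ^ 2) * hπs + (π ^ (2 ^ (m + 1)) * π * ε + π ^ (2 ^ (m + 1))) * h2
    obtain ⟨h, hh⟩ := conj_of_tr hm hF hg htr
    have hwi := wS_inv hm hF
    have hin : InSq (u hm hF 1 e) (u hm hF 1 ε * (wS hm hF *
        u hm hF π (π ^ (2 ^ (m + 1)) * π * ε) * wS hm hF)) := by
      rw [← eb, ← ea]
      refine inSq_mul ⟨u hm hF v 0, rfl⟩ ⟨wS hm hF * DHom hm hF κ * u hm hF v 0, ?_⟩
      calc wS hm hF * (DHom hm hF κ * (u hm hF v 0 * u hm hF 1 e * (u hm hF v 0)⁻¹) *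
            (DHom hm hF κ)⁻¹) * wS hm hF
          = wS hm hF * (DHom hm hF κ * (u hm hF v 0 * u hm hF 1 e * (u hm hF v 0)⁻¹) *
            (DHom hm hF κ)⁻¹) * (wS hm hF)⁻¹ := by rw [hwi]
        _ = _ := by group
    rw [hh] at hin
    exact InSq.of_conj h hin

theorem four_unip (hm : 1 ≤ m) (hF : Fintype.card F = 2 ^ (2 * m + 1)) (e c d : F)
    (hcd : ¬ (c = 0 ∧ d = 0)) : InSq (u hm hF 1 e) (u hm hF c d) := by
  have hs := hyp_of_card hm hF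
  by_cases hc : c = 0
  · have hd : d ≠ 0 := fun h => hcd ⟨hc, h⟩
    subst hc
    obtain ⟨κ, hκ⟩ := upow_s2 hs hd
    have e1 : u hm hF 0 d =
        DHom hm hF κ * (u hm hF 1 e * u hm hF 1 e) * (DHom hm hF κ)⁻¹ := by
      rw [u_sq, D_u, mul_zero, hκ, one_pow, mul_one, mul_one]
    rw [e1]
    apply InSq.conj
    exact ⟨1, 1, by group⟩
  · obtain ⟨κ, hκ⟩ := usroot hF hc
    have hκ0 : (κ : F) ^ (2 ^ (m + 1) + 2) ≠ 0 := pow_ne_zero _ κ.ne_zero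
    have e1 : u hm hF c d = DHom hm hF κ * u hm hF 1 (d / (κ : F) ^ (2 ^ (m + 1) + 2)) *
        (DHom hm hF κ)⁻¹ := by
      rw [D_u, hκ, mul_one]
      congr 1
      field_simp
    rw [e1]
    exact (four_four hm hF e _).conj _

theorem four_main (hm : 1 ≤ m) (hF : Fintype.card F = 2 ^ (2 * m + 1)) (e : F)
    {g : ↥(Cfsg.Sz F m)} (hg : g ≠ 1) : InSq (u hm hF 1 e) g := by
  by_cases h4 : g ^ 4 = 1
  · obtain ⟨γ, c, d, hcd, rfl⟩ := type_two hm hF hg (orderOf_dvd_of_pow_eq_one h4)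
    exact (four_unip hm hF e c d hcd).conj γ
  · exact four_ss hm hF e h4

/-- in `Sz(q)`, every non-identity element is a product of two conjugates of any element of
order greater than `2`. -/
theorem ore (hm : 1 ≤ m) (hF : Fintype.card F = 2 ^ (2 * m + 1)) {x : ↥(Cfsg.Sz F m)}
    (hx : 2 < orderOf x) {g : ↥(Cfsg.Sz F m)} (hg : g ≠ 1) : InSq x g := by
  have hs := hyp_of_card hm hF
  by_cases h4 : x ^ 4 = 1
  · have hx1 : x ≠ 1 := by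
      rintro rfl
      rw [orderOf_one] at hx
      omega
    obtain ⟨γ, c, d, hcd, rfl⟩ := type_two hm hF hx1 (orderOf_dvd_of_pow_eq_one h4)
    have hc : c ≠ 0 := by
      rintro rfl
      have h1 : (γ * u hm hF 0 d * γ⁻¹) ^ 2 = 1 := by
        rw [conj_pow, pow_two, u0_sq]
        group
      have h9 := orderOf_le_of_pow_eq_one (by norm_num) h1
      omega
    obtain ⟨κ, hκ⟩ := usroot hF hc
    have hκ0 : (κ : F) ^ (2 ^ (m + 1) + 2) ≠ 0 := pow_ne_zero _ κ.ne_zero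
    have e1 : u hm hF c d = DHom hm hF κ * u hm hF 1 (d / (κ : F) ^ (2 ^ (m + 1) + 2)) *
        (DHom hm hF κ)⁻¹ := by
      rw [D_u, hκ, mul_one]
      congr 1
      field_simp
    have e2 : γ * u hm hF c d * γ⁻¹ = (γ * DHom hm hF κ) *
        u hm hF 1 (d / (κ : F) ^ (2 ^ (m + 1) + 2)) * (γ * DHom hm hF κ)⁻¹ := by
      rw [e1]
      group
    rw [e2]
    exact (four_main hm hF _ hg).conj_left _
  · by_cases g4 : g ^ 4 = 1
    · obtain ⟨γ, c, d, hcd, rfl⟩ := type_two hm hF hg (orderOf_dvd_of_pow_eq_one g4)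
      exact (ss_unip hm hF h4 c d hcd).conj γ
    · exact ss_ss hm hF h4 g4

end Cfsg.Agent.Lib.Helper3.SzOre5
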